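import Mathlib

set_option autoImplicit false
set_option linter.unusedTactic false

namespace Cfsg.Agent.Lib.Helper9

/-- Numbers up to 100: either 60, or 84, or twice an odd number, or a product of two prime powers. -/
theorem small_cases (n : ℕ) (h1 : 1 < n) (h : n ≤ 100) :
    n = 60 ∨ n = 84 ∨ n % 4 = 2 ∨ ∃ p q : ℕ, p.Prime ∧ q.Prime ∧ n ∣ (p * q) ^ 7 := by
  by_cases h60 : n = 60
  · exact Or.inl h60
  by_cases h84 : n = 84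
  · exact Or.inr (Or.inl h84)
  by_cases h2 : n % 4 = 2
  · exact Or.inr (Or.inr (Or.inl h2))
  refine Or.inr (Or.inr (Or.inr ?_))
  interval_cases n <;> first
    | omega
    | (refine ⟨2, 3, ?_, ?_, ?_⟩ <;> (norm_num; done))
    | (refine ⟨2, 5, ?_, ?_, ?_⟩ <;> (norm_num; done))
    | (refine ⟨2, 7, ?_, ?_, ?_⟩ <;> (norm_num; done))
    | (refine ⟨3, 5, ?_, ?_, ?_⟩ <;> (norm_num; done))
    | (refine ⟨3, 7, ?_, ?_, ?_⟩ <;> (norm_num; done))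
    | (refine ⟨2, 11, ?_, ?_, ?_⟩ <;> (norm_num; done))
    | (refine ⟨2, 13, ?_, ?_, ?_⟩ <;> (norm_num; done))
    | (refine ⟨3, 11, ?_, ?_, ?_⟩ <;> (norm_num; done))
    | (refine ⟨5, 7, ?_, ?_, ?_⟩ <;> (norm_num; done))
    | (refine ⟨3, 13, ?_, ?_, ?_⟩ <;> (norm_num; done))
    | (refine ⟨2, 17, ?_, ?_, ?_⟩ <;> (norm_num; done))
    | (refine ⟨2, 19, ?_, ?_, ?_⟩ <;> (norm_num; done))
    | (refine ⟨3, 17, ?_, ?_, ?_⟩ <;> (norm_num; done))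
    | (refine ⟨5, 11, ?_, ?_, ?_⟩ <;> (norm_num; done))
    | (refine ⟨3, 19, ?_, ?_, ?_⟩ <;> (norm_num; done))
    | (refine ⟨2, 23, ?_, ?_, ?_⟩ <;> (norm_num; done))
    | (refine ⟨5, 13, ?_, ?_, ?_⟩ <;> (norm_num; done))
    | (refine ⟨3, 23, ?_, ?_, ?_⟩ <;> (norm_num; done))
    | (refine ⟨7, 11, ?_, ?_, ?_⟩ <;> (norm_num; done))
    | (refine ⟨2, 29, ?_, ?_, ?_⟩ <;> (norm_num; done))
    | (refine ⟨5, 17, ?_, ?_, ?_⟩ <;> (norm_num; done))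
    | (refine ⟨3, 29, ?_, ?_, ?_⟩ <;> (norm_num; done))
    | (refine ⟨7, 13, ?_, ?_, ?_⟩ <;> (norm_num; done))
    | (refine ⟨2, 31, ?_, ?_, ?_⟩ <;> (norm_num; done))
    | (refine ⟨3, 31, ?_, ?_, ?_⟩ <;> (norm_num; done))
    | (refine ⟨5, 19, ?_, ?_, ?_⟩ <;> (norm_num; done))
    | (refine ⟨2, 37, ?_, ?_, ?_⟩ <;> (norm_num; done))
    | (refine ⟨2, 41, ?_, ?_, ?_⟩ <;> (norm_num; done))
    | (refine ⟨2, 43, ?_, ?_, ?_⟩ <;> (norm_num; done))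
    | (refine ⟨2, 47, ?_, ?_, ?_⟩ <;> (norm_num; done))
    | (refine ⟨2, 53, ?_, ?_, ?_⟩ <;> (norm_num; done))
    | (refine ⟨2, 59, ?_, ?_, ?_⟩ <;> (norm_num; done))
    | (refine ⟨2, 61, ?_, ?_, ?_⟩ <;> (norm_num; done))
    | (refine ⟨2, 67, ?_, ?_, ?_⟩ <;> (norm_num; done))
    | (refine ⟨2, 71, ?_, ?_, ?_⟩ <;> (norm_num; done))
    | (refine ⟨2, 73, ?_, ?_, ?_⟩ <;> (norm_num; done))
    | (refine ⟨2, 79, ?_, ?_, ?_⟩ <;> (norm_num; done))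
    | (refine ⟨2, 83, ?_, ?_, ?_⟩ <;> (norm_num; done))
    | (refine ⟨2, 89, ?_, ?_, ?_⟩ <;> (norm_num; done))
    | (refine ⟨2, 97, ?_, ?_, ?_⟩ <;> (norm_num; done))

end Cfsg.Agent.Lib.Helper9
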