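import Mathlib

set_option autoImplicit false

namespace Cfsg.Agent.Lib.Helper9

open Polynomial

universe u

/-- An endomorphism of a nonzero finite `𝔽_p`-vector space whose `(p-1)`-th power is the
identity has an eigenvector. -/
theorem exists_eigenvector_of_pow_pred {V : Type u} [AddCommGroup V] [Finite V] [Nontrivial V]
    (p : ℕ) [hp : Fact p.Prime] [Module (ZMod p) V] (f : Module.End (ZMod p) V)
    (hf : f ^ (p - 1) = 1) : ∃ (μ : ZMod p) (v : V), v ≠ 0 ∧ f v = μ • v := by
  have hq : Polynomial.aeval f (X ^ (p - 1) - 1 : (ZMod p)[X]) = 0 := by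
    simp [hf]
  have hdvd : minpoly (ZMod p) f ∣ (X ^ (p - 1) - 1 : (ZMod p)[X]) := minpoly.dvd _ _ hq
  have hdvd2 : (X ^ (p - 1) - 1 : (ZMod p)[X]) ∣ X ^ p - X := by
    refine ⟨X, ?_⟩
    have h1 : (X : (ZMod p)[X]) ^ p = X ^ (p - 1) * X := by
      rw [← pow_succ]
      congr 1
      have := hp.out.one_lt
      omega
    rw [h1]
    ring
  have hsplit : (X ^ p - X : (ZMod p)[X]).Splits := by
    have := FiniteField.splits_X_pow_card_sub_X (p := p) (K := ZMod p)
    simpa [ZMod.card] using this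
  have hne : (X ^ p - X : (ZMod p)[X]) ≠ 0 :=
    FiniteField.X_pow_card_sub_X_ne_zero (ZMod p) hp.out.one_lt
  have hms : (minpoly (ZMod p) f).Splits := hsplit.of_dvd hne (hdvd.trans hdvd2)
  have hint : IsIntegral (ZMod p) f := Algebra.IsIntegral.isIntegral f
  have hdeg : (minpoly (ZMod p) f).degree ≠ 0 := (minpoly.degree_pos hint).ne'
  obtain ⟨μ, hμ⟩ := hms.exists_eval_eq_zero hdeg
  have hev : f.HasEigenvalue μ := Module.End.hasEigenvalue_of_isRoot hμ
  obtain ⟨v, hv⟩ := hev.exists_hasEigenvector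
  exact ⟨μ, v, hv.2, hv.apply_eq_smul⟩

theorem exists_eigen_module {A : Type u} [CommGroup A] [Finite A] [Nontrivial A]
    (p : ℕ) [hp : Fact p.Prime] [Module (ZMod p) (Additive A)] (φ : A →* A)
    (hφ : ∀ a : A, φ^[p - 1] a = a) : ∃ (n : ℕ) (u : A), u ≠ 1 ∧ φ u = u ^ n := by
  obtain ⟨f, hfdef⟩ : ∃ f : Module.End (ZMod p) (Additive A),
    f = (MonoidHom.toAdditive φ).toZModLinearMap p := ⟨_, rfl⟩
  have hf1 : ∀ v : Additive A, f v = Additive.ofMul (φ (Additive.toMul v)) := by
    intro v; rw [hfdef]; rfl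
  have hfk : ∀ (k : ℕ) (v : Additive A),
      (f ^ k) v = Additive.ofMul (φ^[k] (Additive.toMul v)) := by
    intro k
    induction k with
    | zero => intro v; simp
    | succ k ih =>
      intro v
      rw [pow_succ', Module.End.mul_apply, ih, Function.iterate_succ_apply', hf1]
      rfl
  have hf : f ^ (p - 1) = 1 := by
    ext v
    rw [hfk, hφ]
    rfl
  obtain ⟨μ, v, hv0, hv⟩ := exists_eigenvector_of_pow_pred p f hf
  refine ⟨μ.val, Additive.toMul v, ?_, ?_⟩
  · intro h1
    exact hv0 (congrArg Additive.ofMul h1)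
  · have h2 : μ • v = μ.val • v := by
      conv_lhs => rw [← ZMod.natCast_zmod_val μ]
      exact Nat.cast_smul_eq_nsmul (ZMod p) μ.val v
    have h3 : f v = μ.val • v := hv.trans h2
    rw [hf1] at h3
    exact congrArg Additive.toMul h3

/-- An endomorphism `φ` of a nontrivial finite elementary abelian `p`-group with `φ^(p-1) = id`
maps some nonidentity element to a power of itself. -/
theorem exists_eigen_commGroup {A : Type u} [CommGroup A] [Finite A] [Nontrivial A]
    (p : ℕ) [hp : Fact p.Prime] (hA : ∀ a : A, a ^ p = 1) (φ : A →* A)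
    (hφ : ∀ a : A, φ^[p - 1] a = a) : ∃ (n : ℕ) (u : A), u ≠ 1 ∧ φ u = u ^ n := by
  have hV : ∀ x : Additive A, p • x = 0 := by
    intro x
    exact congrArg Additive.ofMul (hA (Additive.toMul x))
  exact @exists_eigen_module A _ _ _ p hp (AddCommGroup.zmodModule hV) φ hφ

end Cfsg.Agent.Lib.Helper9
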