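import Cfsg.Agent.Lib.Helper9.Huppert1
import Cfsg.Agent.Lib.Helper9.Eigen
import Cfsg.Agent.Lib.Helper1.MinNormal
import Cfsg.Agent.Lib.Helper1.SZConjB
import Cfsg.Agent.S0580
import Cfsg.Agent.S0584
import Cfsg.Agent.S0022

set_option autoImplicit false

namespace Cfsg.Agent.Lib.Helper9

open Subgroup Pointwise
open scoped commutatorElement

universe u v

/-- Group form of the eigenvector lemma. -/
theorem exists_eigen_subgroup {G : Type u} [Group G] [Finite G] (p : ℕ) [hp : Fact p.Prime]
    (N : Subgroup G) (hNc : ∀ a ∈ N, ∀ b ∈ N, a * b = b * a) (hNp : ∀ a ∈ N, a ^ p = 1)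
    (hN : N ≠ ⊥) (h : G) (hh : ∀ w ∈ N, h * w * h⁻¹ ∈ N)
    (hpow : ∀ w ∈ N, h ^ (p - 1) * w = w * h ^ (p - 1)) :
    ∃ (a : ℕ) (u : G), u ∈ N ∧ u ≠ 1 ∧ h * u * h⁻¹ = u ^ a := by
  let _ : CommGroup N :=
    { (inferInstance : Group N) with mul_comm := fun a b => Subtype.ext (hNc a a.2 b b.2) }
  have hnt : Nontrivial N := (Subgroup.nontrivial_iff_ne_bot N).mpr hN
  let φ : N →* N :=
    { toFun := fun w => ⟨h * w * h⁻¹, hh w w.2⟩
      map_one' := by apply Subtype.ext; simp
      map_mul' := by intro a b; apply Subtype.ext; simp }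
  have hφ1 : ∀ w : N, ((φ w : N) : G) = h * w * h⁻¹ := fun w => rfl
  have hφk : ∀ (k : ℕ) (w : N), ((φ^[k] w : N) : G) = h ^ k * w * (h ^ k)⁻¹ := by
    intro k
    induction k with
    | zero => intro w; simp
    | succ k ih =>
      intro w
      rw [Function.iterate_succ_apply', hφ1, ih, pow_succ']
      group
  have hφ : ∀ w : N, φ^[p - 1] w = w := by
    intro w
    apply Subtype.ext
    rw [hφk, hpow w w.2]
    group
  obtain ⟨n, u, hu1, hu⟩ := exists_eigen_commGroup p (fun a : N => Subtype.ext (hNp a a.2)) φ hφ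
  refine ⟨n, u, u.2, fun h1 => hu1 (Subtype.ext h1), ?_⟩
  have := congrArg Subtype.val hu
  rw [hφ1] at this
  exact this

theorem isNilpotent_comap_commutator {G : Type u} [Group G] [Finite G] (N : Subgroup G)
    [N.Normal] (hN : N ≤ frattini G) (hGN : Group.IsNilpotent (commutator (G ⧸ N))) :
    Group.IsNilpotent ((commutator (G ⧸ N)).comap (QuotientGroup.mk' N)) := by
  have hNA : N ≤ (commutator (G ⧸ N)).comap (QuotientGroup.mk' N) := by
    intro x hx
    rw [mem_comap]
    have h1 : QuotientGroup.mk' N x = 1 := (QuotientGroup.eq_one_iff x).mpr hx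
    rw [h1]
    exact one_mem _
  apply Cfsg.Agent.S0584.result _ N hNA hN
  let f0 : ((commutator (G ⧸ N)).comap (QuotientGroup.mk' N)) →* (commutator (G ⧸ N)) :=
    { toFun := fun a => ⟨QuotientGroup.mk' N (a : G), a.2⟩
      map_one' := by apply Subtype.ext; simp
      map_mul' := by intro a b; apply Subtype.ext; simp }
  have hsurj : Function.Surjective f0 := by
    rintro ⟨c, hc⟩
    obtain ⟨g, rfl⟩ := QuotientGroup.mk'_surjective N c
    exact ⟨⟨g, hc⟩, rfl⟩
  have hker : N.subgroupOf ((commutator (G ⧸ N)).comap (QuotientGroup.mk' N)) = f0.ker := by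
    ext a
    rw [mem_subgroupOf, MonoidHom.mem_ker]
    constructor
    · intro ha
      apply Subtype.ext
      exact (QuotientGroup.eq_one_iff (a : G)).mpr ha
    · intro ha
      exact (QuotientGroup.eq_one_iff (a : G)).mp (congrArg Subtype.val ha)
  have e := (QuotientGroup.quotientMulEquivOfEq hker).trans
    (QuotientGroup.quotientKerEquivOfSurjective f0 hsurj)
  exact Group.nilpotent_of_mulEquiv e.symm

end Cfsg.Agent.Lib.Helper9
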