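import Cfsg.Agent.Lib.Helper9.SupersolvableHall

set_option autoImplicit false

namespace Cfsg.Agent.Lib.Helper9

open Subgroup Pointwise

universe u v

/-- The hypothesis "all maximal subgroups have prime index" passes to quotients. -/
theorem coatom_index_prime_quotient {G : Type u} [Group G] (N : Subgroup G) [N.Normal]
    (h : ∀ M : Subgroup G, IsCoatom M → M.index.Prime) :
    ∀ M : Subgroup (G ⧸ N), IsCoatom M → M.index.Prime := by
  intro M hM
  have hsurj : Function.Surjective (QuotientGroup.mk' N) := QuotientGroup.mk'_surjective _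
  have hco : IsCoatom (M.comap (QuotientGroup.mk' N)) := by
    constructor
    · intro htop
      apply hM.1
      rw [← Subgroup.map_comap_eq_self_of_surjective hsurj M, htop,
        Subgroup.map_top_of_surjective _ hsurj]
    · intro K hK
      have hker : (QuotientGroup.mk' N).ker ≤ K :=
        le_trans (Subgroup.ker_le_comap _ _) hK.le
      have hlt : M < K.map (QuotientGroup.mk' N) := by
        refine lt_of_le_of_ne ?_ ?_
        · rw [← Subgroup.map_comap_eq_self_of_surjective hsurj M]
          exact Subgroup.map_mono hK.le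
        · intro heq
          apply hK.ne
          rw [heq, Subgroup.comap_map_eq_self hker]
      have htop := hM.2 _ hlt
      rw [← Subgroup.comap_map_eq_self hker, htop, Subgroup.comap_top]
  have := h _ hco
  rwa [Subgroup.index_comap_of_surjective _ hsurj] at this

/-- A nontrivial normal subgroup of a finite supersolvable group contains a normal subgroup of
prime order, generated by one element. -/
theorem exists_normal_zpowers_prime_le {G : Type u} [Group G] [Finite G]
    (hG : Cfsg.IsSupersolvable G) (P : Subgroup G) [P.Normal] (hP : P ≠ ⊥) :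
    ∃ g : G, (orderOf g).Prime ∧ (zpowers g).Normal ∧ zpowers g ≤ P := by
  rw [isSupersolvable_iff_reach] at hG
  have h1 := hG.inf_right inferInstance P
  rw [bot_inf_eq, top_inf_eq] at h1
  obtain ⟨g, hg, hn, hle⟩ := exists_normal_zpowers_of_reach h1 hP
  obtain ⟨k, hp, hn', hle'⟩ := exists_prime_orderOf_normal_zpowers hg hn
  exact ⟨k, hp, hn', hle'.trans hle⟩

/-- Conjugation by powers on an eigen-element. -/
theorem conj_pow_eq_pow_pow {G : Type u} [Group G] (h g : G) (a : ℕ) (hg : h * g * h⁻¹ = g ^ a)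
    (k : ℕ) : h ^ k * g * (h ^ k)⁻¹ = g ^ (a ^ k) := by
  induction k with
  | zero => simp
  | succ k ih =>
    have e : h ^ (k + 1) * g * (h ^ (k + 1))⁻¹ = h * (h ^ k * g * (h ^ k)⁻¹) * h⁻¹ := by
      rw [pow_succ']; group
    rw [e, ih, ← conj_pow, hg, ← pow_mul, pow_succ, mul_comm]

theorem pow_pred_comm_aux (n : ℕ) : ∀ (G : Type u) [Group G] [Finite G], Nat.card G = n →
    Cfsg.IsSupersolvable G → ∀ (p : ℕ) [Fact p.Prime] (P : Subgroup G) [P.Normal],
    IsPGroup p P → ∀ h : G, (orderOf h).Coprime p →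
    ∀ y ∈ P, h ^ (p - 1) * y = y * h ^ (p - 1) := by
  induction n using Nat.strong_induction_on with
  | _ n ih =>
    intro G _ _ hn hG p hpf P hPn hP h hcop y hy
    have hp : p.Prime := hpf.out
    by_cases hPbot : P = ⊥
    · rw [hPbot, mem_bot] at hy
      rw [hy, mul_one, one_mul]
    obtain ⟨g, hgp, hgn, hgP⟩ := exists_normal_zpowers_prime_le hG P hPbot
    have hgmem : g ∈ P := hgP (mem_zpowers g)
    -- the order of g is p
    have hgo : orderOf g = p := by
      obtain ⟨k, hk⟩ := hP ⟨g, hgmem⟩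
      have h1 : g ^ p ^ k = 1 := congrArg Subtype.val hk
      have h2 : orderOf g ∣ p ^ k := orderOf_dvd_of_pow_eq_one h1
      exact (Nat.prime_dvd_prime_iff_eq hgp hp).mp (hgp.dvd_of_dvd_pow h2)
    have hg1 : g ≠ 1 := fun h1 => by
      rw [h1, orderOf_one] at hgo
      exact hp.one_lt.ne hgo
    -- x = h^(p-1) centralizes g
    have hxg : h ^ (p - 1) * g = g * h ^ (p - 1) := by
      have hc : h * g * h⁻¹ ∈ zpowers g := hgn.conj_mem g (mem_zpowers g) h
      rw [← mem_powers_iff_mem_zpowers] at hc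
      obtain ⟨a, ha⟩ := hc
      have ha' : h * g * h⁻¹ = g ^ a := ha.symm
      have hpa : ¬ p ∣ a := by
        intro hd
        have : g ^ a = 1 := by
          rw [← hgo] at hd
          exact orderOf_dvd_iff_pow_eq_one.mp hd
        rw [this] at ha'
        apply hg1
        have : g = h⁻¹ * (h * g * h⁻¹) * h := by group
        rw [this, ha']; group
      have h1 := conj_pow_eq_pow_pow h g a ha' (p - 1)
      have h2 : a ^ (p - 1) ≡ 1 [MOD p] := by
        have := Nat.ModEq.pow_totient ((Nat.Prime.coprime_iff_not_dvd hp).mpr hpa).symm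
        rwa [Nat.totient_prime hp] at this
      have h3 : g ^ (a ^ (p - 1)) = g ^ 1 := by
        rw [pow_eq_pow_iff_modEq, hgo]; exact h2
      rw [h3, pow_one] at h1
      calc h ^ (p - 1) * g = (h ^ (p - 1) * g * (h ^ (p - 1))⁻¹) * h ^ (p - 1) := by group
        _ = g * h ^ (p - 1) := by rw [h1]
    -- the quotient
    have hN1 : 1 < Nat.card (zpowers g) := by
      rw [Nat.card_zpowers, hgo]; exact hp.one_lt
    have hlt : Nat.card (G ⧸ zpowers g) < n := hn ▸ card_quotient_lt (zpowers g) hN1
    have hPbar : IsPGroup p (P.map (QuotientGroup.mk' (zpowers g))) := hP.map _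
    have hPbarn : (P.map (QuotientGroup.mk' (zpowers g))).Normal :=
      hPn.map _ (QuotientGroup.mk'_surjective _)
    have hcop' : (orderOf (QuotientGroup.mk' (zpowers g) h)).Coprime p :=
      Nat.Coprime.coprime_dvd_left (orderOf_map_dvd _ h) hcop
    have IH := ih _ hlt (G ⧸ zpowers g) rfl (isSupersolvable_quotient hG (zpowers g)) p
      (P.map (QuotientGroup.mk' (zpowers g))) hPbar (QuotientGroup.mk' (zpowers g) h) hcop'
      (QuotientGroup.mk' (zpowers g) y) (mem_map_of_mem _ hy)
    -- c := x y x⁻¹ y⁻¹ ∈ zpowers g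
    have hc : h ^ (p - 1) * y * (h ^ (p - 1))⁻¹ * y⁻¹ ∈ zpowers g := by
      apply (QuotientGroup.eq_one_iff _).mp
      show QuotientGroup.mk' (zpowers g) (h ^ (p - 1) * y * (h ^ (p - 1))⁻¹ * y⁻¹) = 1
      rw [map_mul, map_mul, map_mul, map_inv, map_inv, map_pow, IH]
      group
    obtain ⟨c, hcdef⟩ : ∃ c : G, c = h ^ (p - 1) * y * (h ^ (p - 1))⁻¹ * y⁻¹ := ⟨_, rfl⟩
    rw [← hcdef] at hc
    have hxc : h ^ (p - 1) * c = c * h ^ (p - 1) := by
      obtain ⟨i, hi⟩ := mem_zpowers_iff.mp hc
      rw [← hi]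
      exact (Commute.zpow_right (show Commute (h ^ (p - 1)) g from hxg) i).eq
    have hconj : h ^ (p - 1) * y * (h ^ (p - 1))⁻¹ = c * y := by
      rw [hcdef]; group
    have hiter : ∀ k : ℕ, (h ^ (p - 1)) ^ k * y * ((h ^ (p - 1)) ^ k)⁻¹ = c ^ k * y := by
      intro k
      induction k with
      | zero => simp
      | succ k ihk =>
        have e : (h ^ (p - 1)) ^ (k + 1) * y * ((h ^ (p - 1)) ^ (k + 1))⁻¹
            = h ^ (p - 1) * ((h ^ (p - 1)) ^ k * y * ((h ^ (p - 1)) ^ k)⁻¹) * (h ^ (p - 1))⁻¹ := by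
          rw [pow_succ']; group
        rw [e, ihk]
        have e2 : h ^ (p - 1) * (c ^ k * y) * (h ^ (p - 1))⁻¹
            = (h ^ (p - 1) * c ^ k * (h ^ (p - 1))⁻¹) * (h ^ (p - 1) * y * (h ^ (p - 1))⁻¹) := by
          group
        have e3 : h ^ (p - 1) * c ^ k * (h ^ (p - 1))⁻¹ = c ^ k := by
          have := (Commute.pow_right (show Commute (h ^ (p - 1)) c from hxc) k).eq
          rw [this]; group
        rw [e2, e3, hconj, ← mul_assoc, ← pow_succ]
    have h1 := hiter (orderOf (h ^ (p - 1)))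
    rw [pow_orderOf_eq_one, one_mul, inv_one, mul_one] at h1
    have hc1 : c ^ orderOf (h ^ (p - 1)) = 1 := by
      have : c ^ orderOf (h ^ (p - 1)) * y = 1 * y := by rw [one_mul]; exact h1.symm
      exact mul_right_cancel this
    have hc2 : c ^ p = 1 := by
      have := Subgroup.orderOf_dvd_natCard _ hc
      rw [Nat.card_zpowers, hgo] at this
      exact orderOf_dvd_iff_pow_eq_one.mp this
    have hc3 : orderOf c = 1 := by
      have d1 : orderOf c ∣ orderOf (h ^ (p - 1)) := orderOf_dvd_of_pow_eq_one hc1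
      have d2 : orderOf c ∣ p := orderOf_dvd_of_pow_eq_one hc2
      have d3 : orderOf (h ^ (p - 1)) ∣ orderOf h := orderOf_pow_dvd _
      exact Nat.eq_one_of_dvd_coprimes hcop (d1.trans d3) d2
    have hc4 : c = 1 := orderOf_eq_one_iff.mp hc3
    rw [hc4, one_mul] at hconj
    calc h ^ (p - 1) * y = (h ^ (p - 1) * y * (h ^ (p - 1))⁻¹) * h ^ (p - 1) := by group
      _ = y * h ^ (p - 1) := by rw [hconj]

/-- In a finite supersolvable group, the `(p-1)`-th power of a `p'`-element centralizes every
normal `p`-subgroup. -/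
theorem pow_pred_comm_of_isSupersolvable {G : Type u} [Group G] [Finite G]
    (hG : Cfsg.IsSupersolvable G) (p : ℕ) [Fact p.Prime] (P : Subgroup G) [P.Normal]
    (hP : IsPGroup p P) (h : G) (hcop : (orderOf h).Coprime p) (y : G) (hy : y ∈ P) :
    h ^ (p - 1) * y = y * h ^ (p - 1) :=
  pow_pred_comm_aux _ G rfl hG p P hP h hcop y hy

end Cfsg.Agent.Lib.Helper9
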