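import Mathlib
import Cfsg.Agent.Lib.Helper69.TwoClassSizes
import Cfsg.Agent.Lib.Helper67.SylowLemmas
import Cfsg.Agent.Lib.Helper1.Tools

set_option autoImplicit false
set_option linter.unusedSectionVars false
set_option linter.style.haveILetI false

namespace Cfsg.Agent.Lib.Helper9.TwoIdx

open Subgroup

variable {G : Type*} [Group G]

/-- A conjugation-invariant finite set of size prime to `r` contains a point fixed by the
`r`-element `g`. -/
theorem exists_fixed_of_conj (r : ℕ) [Fact r.Prime] (X : Set G) (hX : X.Finite)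
    (g : G) (e : ℕ) (hg : g ^ r ^ e = 1) (hinv : ∀ x ∈ X, g⁻¹ * x * g ∈ X)
    (hr : ¬ r ∣ Nat.card X) : ∃ x ∈ X, g⁻¹ * x * g = x := by
  classical
  have : Fintype X := hX.fintype
  let f : Function.End X := fun x => ⟨g⁻¹ * x.1 * g, hinv x.1 x.2⟩
  have hpow : ∀ n : ℕ, ∀ x : X, ((f ^ n) x).1 = (g ^ n)⁻¹ * x.1 * g ^ n := by
    intro n
    induction n with
    | zero => intro x; rw [pow_zero, pow_zero, inv_one, one_mul, mul_one]; rfl
    | succ n ih =>
      intro x
      have h1 : (f ^ (n + 1)) x = (f ^ n) (f x) := by rw [pow_succ]; rfl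
      rw [h1, ih]
      show (g ^ n)⁻¹ * (g⁻¹ * x.1 * g) * g ^ n = (g ^ (n + 1))⁻¹ * x.1 * g ^ (n + 1)
      rw [pow_succ' g n, mul_inv_rev]
      simp only [mul_assoc]
  have hf : f ^ r ^ e = 1 := by
    funext x
    apply Subtype.ext
    rw [hpow, hg, inv_one, one_mul, mul_one]
    rfl
  have hmod := Equiv.Perm.card_fixedPoints_modEq (f := f) (p := r) (n := e) hf
  by_contra hcon
  push Not at hcon
  have hempty : IsEmpty (Function.fixedPoints f) :=
    ⟨fun x => hcon x.1.1 x.1.2 (congrArg Subtype.val x.2)⟩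
  have h0 : Fintype.card (Function.fixedPoints f) = 0 := Fintype.card_eq_zero
  rw [h0] at hmod
  apply hr
  rw [Nat.card_eq_fintype_card]
  exact (Nat.modEq_zero_iff_dvd).mp hmod

section FPF

variable {M : Type*} [CommGroup M]

/-- the norm of `w` under the cyclic group generated by `γ` -/
noncomputable def nrm (r : ℕ) (γ : MulAut M) (w : M) : M := ∏ k ∈ Finset.range r, (γ ^ k) w

theorem nrm_fixed (r : ℕ) (γ : MulAut M) (hγ : γ ^ r = 1) (w : M) :
    γ (nrm r γ w) = nrm r γ w := by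
  unfold nrm
  rw [map_prod]
  have h1 : ∀ k, γ ((γ ^ k) w) = (γ ^ (k + 1)) w := by
    intro k; rw [pow_succ']; rfl
  simp only [h1]
  have h2 := Finset.prod_range_succ' (fun k => (γ ^ k) w) r
  have h3 := Finset.prod_range_succ (fun k => (γ ^ k) w) r
  rw [h3] at h2
  simp only [hγ, pow_zero, MulAut.one_apply] at h2
  exact (mul_right_cancel h2).symm

theorem mulmod_prod (r : ℕ) [hr : Fact r.Prime] (k : ℕ) (hk0 : 0 < k) (hkr : k < r)
    (F : ℕ → M) : ∏ c ∈ Finset.range r, F (c * k % r) = ∏ j ∈ Finset.range r, F j := by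
  classical
  have hcop : Nat.gcd r k = 1 :=
    (Nat.Prime.coprime_iff_not_dvd hr.out).mpr (Nat.not_dvd_of_pos_of_lt hk0 hkr)
  have hinj : Set.InjOn (fun c => c * k % r) (Finset.range r : Set ℕ) := by
    intro c hc c' hc' hcc
    have hc1 : c < r := Finset.mem_range.mp hc
    have hc2 : c' < r := Finset.mem_range.mp hc'
    have h1 : c * k ≡ c' * k [MOD r] := hcc
    exact (Nat.ModEq.cancel_right_of_coprime hcop h1).eq_of_lt_of_lt hc1 hc2
  have himg : (Finset.range r).image (fun c => c * k % r) = Finset.range r := by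
    apply Finset.eq_of_subset_of_card_le
    · intro j hj
      obtain ⟨c, -, rfl⟩ := Finset.mem_image.mp hj
      exact Finset.mem_range.mpr (Nat.mod_lt _ hr.out.pos)
    · rw [Finset.card_image_of_injOn hinj]
  rw [← Finset.prod_image (s := Finset.range r) (g := fun c => c * k % r) (f := F) hinj, himg]

/-- Two commuting automorphisms of exponent `r` of a commutative group, all of whose non-trivial
products `α ^ i * β ^ j` have their fixed points in `Z₀`: then `r`-th powers lie in `Z₀`. -/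
theorem pow_mem_of_fpf_pair (r : ℕ) [hr : Fact r.Prime] (α β : MulAut M)
    (hαβ : α * β = β * α) (hα : α ^ r = 1) (hβ : β ^ r = 1) (Z₀ : Subgroup M)
    (h : ∀ i j : ℕ, i < r → j < r → (i ≠ 0 ∨ j ≠ 0) → ∀ w : M, (α ^ i * β ^ j) w = w → w ∈ Z₀)
    (w : M) : w ^ r ∈ Z₀ := by
  have hr1 : 1 < r := hr.out.one_lt
  have hcomm : Commute α β := hαβ
  have hline : ∀ c, c < r → nrm r (α * β ^ c) w ∈ Z₀ := by
    intro c hc
    have hγ : (α * β ^ c) ^ r = 1 := by
      rw [(hcomm.pow_right c).mul_pow, hα, ← pow_mul, mul_comm c r, pow_mul, hβ, one_pow, one_mul]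
    have h1 := nrm_fixed r (α * β ^ c) hγ w
    apply h 1 c hr1 hc (Or.inl one_ne_zero)
    rw [pow_one]; exact h1
  have hβn : ∀ v, nrm r β v ∈ Z₀ := by
    intro v
    apply h 0 1 (by omega) hr1 (Or.inr one_ne_zero)
    rw [pow_zero, pow_one, one_mul]; exact nrm_fixed r β hβ v
  have hαn : ∀ v, nrm r α v ∈ Z₀ := by
    intro v
    apply h 1 0 hr1 (by omega) (Or.inl one_ne_zero)
    rw [pow_zero, pow_one, mul_one]; exact nrm_fixed r α hα v
  have key : (∏ c ∈ Finset.range r, nrm r (α * β ^ c) w) * nrm r β w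
      = w ^ r * nrm r α (nrm r β w) := by
    obtain ⟨r', rfl⟩ : ∃ r', r = r' + 1 := ⟨r - 1, by omega⟩
    have e1 : ∀ c, nrm (r' + 1) (α * β ^ c) w
        = ∏ k ∈ Finset.range (r' + 1), (α ^ k * β ^ (c * k % (r' + 1))) w := by
      intro c
      unfold nrm
      apply Finset.prod_congr rfl
      intro k _
      rw [(hcomm.pow_right c).mul_pow, ← pow_mul, pow_eq_pow_mod (c * k) hβ]
    have e2 : nrm (r' + 1) β w = ∏ j ∈ Finset.range (r' + 1), (α ^ 0 * β ^ j) w := by
      unfold nrm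
      apply Finset.prod_congr rfl
      intro k _
      rw [pow_zero, one_mul]
    have e3 : nrm (r' + 1) α (nrm (r' + 1) β w)
        = ∏ i ∈ Finset.range (r' + 1), ∏ j ∈ Finset.range (r' + 1), (α ^ i * β ^ j) w := by
      unfold nrm
      apply Finset.prod_congr rfl
      intro i _
      rw [map_prod]
      rfl
    simp only [e1]
    rw [e3, e2, Finset.prod_comm, Finset.prod_range_succ' (fun k => ∏ c ∈ Finset.range (r' + 1),
      (α ^ k * β ^ (c * k % (r' + 1))) w) r',
      Finset.prod_range_succ' (fun i => ∏ j ∈ Finset.range (r' + 1), (α ^ i * β ^ j) w) r']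
    have e4 : ∀ k ∈ Finset.range r', ∏ c ∈ Finset.range (r' + 1),
        (α ^ (k + 1) * β ^ (c * (k + 1) % (r' + 1))) w
        = ∏ j ∈ Finset.range (r' + 1), (α ^ (k + 1) * β ^ j) w := by
      intro k hk
      have hk' := Finset.mem_range.mp hk
      exact mulmod_prod (r' + 1) (k + 1) (by omega) (by omega)
        (fun j => (α ^ (k + 1) * β ^ j) w)
    rw [Finset.prod_congr rfl e4]
    have e5 : ∏ c ∈ Finset.range (r' + 1), (α ^ 0 * β ^ (c * 0 % (r' + 1))) w = w ^ (r' + 1) := by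
      simp
    rw [e5]
    simp only [mul_comm, mul_left_comm]
  have h1 : (∏ c ∈ Finset.range r, nrm r (α * β ^ c) w) ∈ Z₀ :=
    Subgroup.prod_mem _ (fun c hc => hline c (Finset.mem_range.mp hc))
  have h2 : w ^ r = (∏ c ∈ Finset.range r, nrm r (α * β ^ c) w) * nrm r β w
      * (nrm r α (nrm r β w))⁻¹ := by
    rw [key, mul_inv_cancel_right]
  rw [h2]
  exact Z₀.mul_mem (Z₀.mul_mem h1 (hβn w)) (Z₀.inv_mem (hαn _))

end FPF

section Concrete

/-- conjugation by a normalizing element as an automorphism of the subgroup -/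
def conjOn (M : Subgroup G) (a : G) (ha : a ∈ normalizer (M : Set G)) : ↥M ≃* ↥M where
  toFun w := ⟨a * w.1 * a⁻¹, (mem_normalizer_iff.mp ha w.1).mp w.2⟩
  invFun w := ⟨a⁻¹ * w.1 * a, by
    apply (mem_normalizer_iff.mp ha (a⁻¹ * w.1 * a)).mpr
    have e : a * (a⁻¹ * w.1 * a) * a⁻¹ = w.1 := by group
    rw [e]; exact w.2⟩
  left_inv w := by
    apply Subtype.ext
    show a⁻¹ * (a * w.1 * a⁻¹) * a = w.1
    group
  right_inv w := by
    apply Subtype.ext
    show a * (a⁻¹ * w.1 * a) * a⁻¹ = w.1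
    group
  map_mul' x y := by
    apply Subtype.ext
    show a * (x.1 * y.1) * a⁻¹ = (a * x.1 * a⁻¹) * (a * y.1 * a⁻¹)
    group

theorem conjOn_pow (M : Subgroup G) (a : G) (ha : a ∈ normalizer (M : Set G)) (n : ℕ) (w : M) :
    ((((conjOn M a ha : MulAut M)) ^ n) w : G) = a ^ n * w.1 * (a ^ n)⁻¹ := by
  induction n generalizing w with
  | zero => simp
  | succ n ih =>
    have h1 : (((conjOn M a ha : MulAut M)) ^ (n + 1)) w
        = (((conjOn M a ha : MulAut M)) ^ n) ((conjOn M a ha) w) := by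
      rw [pow_succ]; rfl
    rw [h1, ih]
    show a ^ n * (a * w.1 * a⁻¹) * (a ^ n)⁻¹ = a ^ (n + 1) * w.1 * (a ^ (n + 1))⁻¹
    rw [pow_succ, mul_inv_rev]
    simp only [mul_assoc]

/-- Two commuting elements `a`, `b` normalizing the abelian subgroup `M`, with central `r`-th
powers, such that every non-trivial `a ^ i * b ^ j` centralizes only central elements of `M`:
then `r`-th powers of elements of `M` are central. -/
theorem fpf_pair (r : ℕ) [Fact r.Prime] (M : Subgroup G)
    (hM : ∀ x ∈ M, ∀ y ∈ M, x * y = y * x) (a b : G)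
    (ha : a ∈ normalizer (M : Set G)) (hb : b ∈ normalizer (M : Set G))
    (hab : a * b = b * a) (har : a ^ r ∈ center G) (hbr : b ^ r ∈ center G)
    (h : ∀ i j : ℕ, i < r → j < r → (i ≠ 0 ∨ j ≠ 0) → ∀ w ∈ M,
      (a ^ i * b ^ j) * w = w * (a ^ i * b ^ j) → w ∈ center G) :
    ∀ w ∈ M, w ^ r ∈ center G := by
  intro w hw
  letI : CommGroup M := { (inferInstance : Group M) with
    mul_comm := fun x y => Subtype.ext (hM x.1 x.2 y.1 y.2) }
  let α : MulAut M := conjOn M a ha
  let β : MulAut M := conjOn M b hb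
  have hαβ : α * β = β * α := by
    apply MulEquiv.ext
    intro v
    apply Subtype.ext
    show a * (b * v.1 * b⁻¹) * a⁻¹ = b * (a * v.1 * a⁻¹) * b⁻¹
    have e1 : a * (b * v.1 * b⁻¹) * a⁻¹ = (a * b) * v.1 * (a * b)⁻¹ := by group
    have e2 : b * (a * v.1 * a⁻¹) * b⁻¹ = (b * a) * v.1 * (b * a)⁻¹ := by group
    rw [e1, e2, hab]
  have hα : α ^ r = 1 := by
    apply MulEquiv.ext
    intro v
    apply Subtype.ext
    have h1 := conjOn_pow M a ha r v
    refine h1.trans ?_
    show a ^ r * v.1 * (a ^ r)⁻¹ = v.1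
    rw [← (mem_center_iff.mp har) v.1, mul_inv_cancel_right]
  have hβ : β ^ r = 1 := by
    apply MulEquiv.ext
    intro v
    apply Subtype.ext
    have h1 := conjOn_pow M b hb r v
    refine h1.trans ?_
    show b ^ r * v.1 * (b ^ r)⁻¹ = v.1
    rw [← (mem_center_iff.mp hbr) v.1, mul_inv_cancel_right]
  have key := pow_mem_of_fpf_pair r α β hαβ hα hβ ((center G).subgroupOf M) ?_ ⟨w, hw⟩
  · rw [mem_subgroupOf] at key
    exact key
  · intro i j hi hj hij v hv
    rw [mem_subgroupOf]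
    apply h i j hi hj hij v.1 v.2
    have h1 := congrArg Subtype.val hv
    have h2 : (((α ^ i * β ^ j) v : M) : G) = a ^ i * (b ^ j * v.1 * (b ^ j)⁻¹) * (a ^ i)⁻¹ := by
      have h3 : (α ^ i * β ^ j) v = (α ^ i) ((β ^ j) v) := rfl
      rw [h3, conjOn_pow M a ha i, conjOn_pow M b hb j]
    rw [h2] at h1
    calc a ^ i * b ^ j * v.1
        = (a ^ i * (b ^ j * v.1 * (b ^ j)⁻¹) * (a ^ i)⁻¹) * (a ^ i * b ^ j) := by group
      _ = v.1 * (a ^ i * b ^ j) := by rw [h1]

end Concrete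

/-- A normal subgroup of a `p`-group not contained in the centre contains a non-central element
whose commutators are all central. -/
theorem exists_mem_second_center {P : Type*} [Group P] [Finite P] (r : ℕ) [Fact r.Prime]
    (hP : IsPGroup r P) (H : Subgroup P) [H.Normal] (hH : ¬ H ≤ center P) :
    ∃ h ∈ H, h ∉ center P ∧ ∀ b : P, h⁻¹ * b⁻¹ * h * b ∈ center P := by
  classical
  let π : P →* P ⧸ center P := QuotientGroup.mk' (center P)
  let Hb : Subgroup (P ⧸ center P) := H.map π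
  have hHbN : Hb.Normal := Subgroup.Normal.map inferInstance π (QuotientGroup.mk'_surjective _)
  have hQp : IsPGroup r (ConjAct (P ⧸ center P)) :=
    (hP.to_quotient (center P)).of_equiv ConjAct.toConjAct
  have hHbp : IsPGroup r Hb := (hP.to_quotient (center P)).to_subgroup Hb
  obtain ⟨h₀, hh₀, hh₀Z⟩ := SetLike.not_le_iff_exists.mp hH
  have hnt : Nontrivial Hb :=
    ⟨⟨⟨π h₀, Subgroup.mem_map_of_mem π hh₀⟩, 1, fun hc =>
      hh₀Z ((QuotientGroup.eq_one_iff h₀).mp (congrArg Subtype.val hc))⟩⟩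
  have hdvd : r ∣ Nat.card Hb := by
    obtain ⟨n, hn0, hn⟩ := hHbp.nontrivial_iff_card.mp hnt
    rw [hn]; exact dvd_pow_self r (ne_of_gt hn0)
  have h1 : (1 : Hb) ∈ MulAction.fixedPoints (ConjAct (P ⧸ center P)) Hb := by
    intro q; exact smul_one q
  obtain ⟨b, hb, hb1⟩ := hQp.exists_fixed_point_of_prime_dvd_card_of_fixed_point Hb hdvd h1
  obtain ⟨h, hhH, hhb⟩ := Subgroup.mem_map.mp b.2
  refine ⟨h, hhH, ?_, ?_⟩
  · intro hc
    apply hb1
    apply Subtype.ext
    rw [← hhb]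
    exact ((QuotientGroup.eq_one_iff h).mpr hc).symm
  · intro c
    have h2 := congrArg Subtype.val (hb (ConjAct.toConjAct (π c⁻¹)))
    rw [ConjAct.Subgroup.val_conj_smul, ConjAct.smul_def, ConjAct.ofConjAct_toConjAct, ← hhb] at h2
    rw [← QuotientGroup.eq_one_iff]
    have h3 : ((h⁻¹ * c⁻¹ * h * c : P) : P ⧸ center P) = (π h)⁻¹ * (π c⁻¹ * π h * (π c⁻¹)⁻¹) := by
      simp only [π, QuotientGroup.mk'_apply, QuotientGroup.mk_mul, QuotientGroup.mk_inv, inv_inv,
        mul_assoc]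
    rw [h3, h2, inv_mul_cancel]

section SylowOrder

variable [Finite G]

theorem card_le_of_isPGroup_le (p : ℕ) [Fact p.Prime] {H P : Subgroup G} (hP : IsPGroup p P)
    (hPH : P ≤ H) : Nat.card P ≤ p ^ (Nat.card H).factorization p := by
  obtain ⟨k, hk⟩ := IsPGroup.iff_card.mp hP
  rw [hk]
  apply Nat.pow_le_pow_right (Fact.out : p.Prime).pos
  rw [← (Fact.out : p.Prime).pow_dvd_iff_le_factorization Nat.card_pos.ne', ← hk]
  exact Subgroup.card_dvd_of_le hPH

theorem exists_max_pgroup (p : ℕ) [Fact p.Prime] (H P₀ : Subgroup G) (hP₀ : IsPGroup p P₀)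
    (hle : P₀ ≤ H) : ∃ Q : Subgroup G, P₀ ≤ Q ∧ Q ≤ H ∧ IsPGroup p Q ∧
      Nat.card Q = p ^ (Nat.card H).factorization p := by
  have h1 : IsPGroup p (P₀.subgroupOf H) := hP₀.comap_subtype
  obtain ⟨S, hS⟩ := h1.exists_le_sylow
  refine ⟨(S : Subgroup H).map H.subtype, ?_, Subgroup.map_subtype_le _, S.isPGroup'.map _, ?_⟩
  · intro x hx
    exact ⟨⟨x, hle hx⟩, hS (mem_subgroupOf.mpr hx), rfl⟩
  · rw [Subgroup.card_map_of_injective H.subtype_injective, Sylow.card_eq_multiplicity]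

theorem mem_of_commutes_max (p : ℕ) [Fact p.Prime] {H Q : Subgroup G} (hQH : Q ≤ H)
    (hQ : IsPGroup p Q) (hcard : p ^ (Nat.card H).factorization p ≤ Nat.card Q) {x : G}
    (hxH : x ∈ H) (j : ℕ) (hx : x ^ p ^ j = 1) (hn : ∀ q ∈ Q, x * q = q * x) : x ∈ Q := by
  have hz : IsPGroup p (zpowers x) := by
    obtain ⟨i, -, hi⟩ := (Nat.dvd_prime_pow Fact.out).mp (orderOf_dvd_of_pow_eq_one hx)
    exact IsPGroup.of_card (n := i) (by rw [Nat.card_zpowers, hi])
  have hle : zpowers x ≤ normalizer (Q : Set G) := by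
    rw [zpowers_le, mem_normalizer_iff]
    intro q
    constructor
    · intro hq
      rw [hn q hq, mul_inv_cancel_right]; exact hq
    · intro hq
      have h1 := hn _ hq
      have h2 : x * (x * q * x⁻¹) = x * q := by rw [h1]; group
      rw [← mul_left_cancel h2]; exact hq
  have hsup : IsPGroup p (zpowers x ⊔ Q : Subgroup G) := hz.to_sup_of_normal_right' hQ hle
  have hsupH : zpowers x ⊔ Q ≤ H := sup_le (by rw [zpowers_le]; exact hxH) hQH
  have h1 := card_le_of_isPGroup_le p hsup hsupH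
  have h2 : Q = zpowers x ⊔ Q := Subgroup.eq_of_le_of_card_ge le_sup_right (h1.trans hcard)
  rw [h2]
  exact (le_sup_left : zpowers x ≤ zpowers x ⊔ Q) (mem_zpowers x)

end SylowOrder

theorem eq_one_of_rel_of_coprime (r : ℕ) {x : G} (j : ℕ) (hx : x ^ r ^ j = 1)
    (hc : (orderOf x).Coprime r) : x = 1 := by
  have h1 : orderOf x ∣ r ^ j := orderOf_dvd_of_pow_eq_one hx
  have h2 : orderOf x = 1 := Nat.Coprime.eq_one_of_dvd (hc.pow_right j) h1
  exact orderOf_eq_one_iff.mp h2

theorem coprime_orders (r : ℕ) {x y : G} (j : ℕ) (hx : x ^ r ^ j = 1)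
    (hy : (orderOf y).Coprime r) : (orderOf x).Coprime (orderOf y) :=
  Nat.Coprime.coprime_dvd_left (orderOf_dvd_of_pow_eq_one hx) (hy.pow_right j).symm

theorem exists_split [Finite G] (r : ℕ) [Fact r.Prime] (x : G) :
    ∃ j q : ℕ, Nat.Coprime (r ^ j) q ∧ (x ^ q) ^ r ^ j = 1 ∧ (orderOf (x ^ r ^ j)).Coprime r := by
  obtain ⟨j, q, hq, hjq⟩ := Nat.exists_eq_pow_mul_and_not_dvd (orderOf_pos x).ne' r
    (Fact.out : r.Prime).ne_one
  have hcop : Nat.Coprime r q := (Nat.Prime.coprime_iff_not_dvd Fact.out).mpr hq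
  refine ⟨j, q, Nat.Coprime.pow_left j hcop, ?_, ?_⟩
  · rw [← pow_mul, mul_comm, ← hjq, pow_orderOf_eq_one]
  · have h1 : orderOf (x ^ r ^ j) ∣ q := by
      apply orderOf_dvd_of_pow_eq_one
      rw [← pow_mul, ← hjq, pow_orderOf_eq_one]
    exact Nat.Coprime.coprime_dvd_left h1 hcop.symm

end Cfsg.Agent.Lib.Helper9.TwoIdx
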