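import Cfsg.Agent.Lib.Helper9.TwoIdx1

set_option autoImplicit false
set_option linter.unusedSectionVars false
set_option linter.style.haveILetI false

namespace Cfsg.Agent.Lib.Helper9.TwoIdx

open Subgroup
open Cfsg.Agent.Lib.Helper69 (Cz Tz mem_Cz mem_Tz self_mem_Cz self_mem_Tz center_le_Tz Tz_congr
  mem_of_pow_mem_of_coprime exists_primePow_pow_not_mem)

variable {G : Type*} [Group G]

/-- Two-index hypothesis: non-central elements of the normal subgroup `N` all have centralizer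
index `m` in `G`. -/
structure TI (G : Type*) [Group G] (N : Subgroup G) (m : ℕ) : Prop where
  normal : N.Normal
  idx : ∀ x ∈ N, x ∉ center G → (Cz x).index = m

/-- The hypothesis together with: `N` contains all `r`-elements and `r ∣ m`. -/
structure TIr (G : Type*) [Group G] (N : Subgroup G) (m r : ℕ) : Prop where
  ti : TI G N m
  relem : ∀ x : G, ∀ j : ℕ, x ^ r ^ j = 1 → x ∈ N
  rm : r ∣ m

/-- the centralizer of `x` in `N` is central in the centralizer of `x` -/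
def Good (N : Subgroup G) (x : G) : Prop := ∀ k ∈ N, k ∈ Cz x → k ∈ Tz x

/-- `x` is an `r`-element -/
def Rel (r : ℕ) (x : G) : Prop := ∃ j : ℕ, x ^ r ^ j = 1

/-- `x` commutes with a non-central `r'`-element of `N` -/
def Phi1 (N : Subgroup G) (r : ℕ) (x : G) : Prop :=
  ∃ y ∈ N, y ∉ center G ∧ (orderOf y).Coprime r ∧ x * y = y * x

theorem center_le_Cz (x : G) : center G ≤ Cz x := Subgroup.center_le_centralizer _

theorem conj_inv_mem_of_mem_normalizer {H : Subgroup G} {b d : G}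
    (hb : b ∈ normalizer (H : Set G)) (hd : d ∈ H) : b⁻¹ * d * b ∈ H := by
  have h1 := (mem_normalizer_iff.mp ((normalizer (H : Set G)).inv_mem hb) d).mp hd
  rwa [inv_inv] at h1

theorem mem_normalizer_Cz_of_comm {a b : G} (hz : a⁻¹ * b⁻¹ * a * b ∈ center G) :
    b ∈ normalizer ((Cz a : Subgroup G) : Set G) := by
  rw [mem_normalizer_iff]
  intro d
  rw [mem_Cz, mem_Cz]
  have hz' := mem_center_iff.mp hz
  have e1 : b⁻¹ * a * b = a * (a⁻¹ * b⁻¹ * a * b) := by group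
  generalize a⁻¹ * b⁻¹ * a * b = z at hz' e1
  constructor
  · intro h
    calc a * (b * d * b⁻¹) = b * ((b⁻¹ * a * b) * d) * b⁻¹ := by group
      _ = b * (a * z * d) * b⁻¹ := by rw [e1]
      _ = b * (a * d * z) * b⁻¹ := by rw [mul_assoc a z d, ← hz' d, mul_assoc a d z]
      _ = b * (d * a * z) * b⁻¹ := by rw [h]
      _ = b * (d * (b⁻¹ * a * b)) * b⁻¹ := by rw [e1, mul_assoc d a z]
      _ = b * d * b⁻¹ * a := by group
  · intro h
    have h2 : (b⁻¹ * a * b) * d = d * (b⁻¹ * a * b) := by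
      calc (b⁻¹ * a * b) * d = b⁻¹ * (a * (b * d * b⁻¹)) * b := by group
        _ = b⁻¹ * ((b * d * b⁻¹) * a) * b := by rw [h]
        _ = d * (b⁻¹ * a * b) := by group
    rw [e1] at h2
    have h3 : a * d * z = d * a * z := by
      calc a * d * z = a * z * d := by rw [mul_assoc, hz' d, ← mul_assoc]
        _ = d * (a * z) := h2
        _ = d * a * z := by rw [mul_assoc]
    exact mul_right_cancel h3

section Fin

variable [Finite G] {N : Subgroup G} {m : ℕ}

theorem TI.Cz_eq_of_le (h : TI G N m) {x y : G} (hx : x ∈ N) (hxZ : x ∉ center G)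
    (hy : y ∈ N) (hyZ : y ∉ center G) (hle : Cz x ≤ Cz y) : Cz x = Cz y := by
  apply le_antisymm hle
  rw [← Subgroup.relIndex_eq_one]
  have h1 := Subgroup.relIndex_mul_index hle
  rw [h.idx x hx hxZ, h.idx y hy hyZ] at h1
  have hm : 0 < m := by
    rw [← h.idx x hx hxZ]
    exact Nat.pos_of_ne_zero Subgroup.index_ne_zero_of_finite
  exact Nat.eq_of_mul_eq_mul_right hm (by rw [h1, one_mul])

theorem TI.card_Cz_eq (h : TI G N m) {x y : G} (hx : x ∈ N) (hxZ : x ∉ center G)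
    (hy : y ∈ N) (hyZ : y ∉ center G) : Nat.card (Cz x) = Nat.card (Cz y) := by
  have h1 := Subgroup.card_mul_index (Cz x)
  have h2 := Subgroup.card_mul_index (Cz y)
  rw [h.idx x hx hxZ] at h1
  rw [h.idx y hy hyZ] at h2
  have hm : 0 < m := by
    rw [← h.idx x hx hxZ]
    exact Nat.pos_of_ne_zero Subgroup.index_ne_zero_of_finite
  exact Nat.eq_of_mul_eq_mul_right hm (h1.trans h2.symm)

/-- commuting elements of coprime orders -/
theorem TI.le_Cz_of_coprime (h : TI G N m) {v w : G} (hv : v ∈ N) (hvZ : v ∉ center G)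
    (hw : w ∈ N) (hc : v * w = w * v) (hco : (orderOf v).Coprime (orderOf w)) :
    Cz v ≤ Cz w := by
  have hvw : v * w ∈ N := N.mul_mem hv hw
  have hcm : Commute v w := hc
  have h1 : Cz (v * w) ≤ Cz v := by
    intro g hg
    rw [mem_Cz] at hg ⊢
    obtain ⟨t, ht⟩ := exists_pow_eq_self_of_coprime hco.symm
    have h2 : (v * w) ^ (orderOf w) = v ^ (orderOf w) := by
      rw [hcm.mul_pow, pow_orderOf_eq_one, mul_one]
    have h3 : Commute (v * w) g := hg
    have h4 : Commute (((v * w) ^ orderOf w) ^ t) g := (h3.pow_left _).pow_left _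
    rw [h2, ht] at h4
    exact h4
  have h1' : Cz (v * w) ≤ Cz w := by
    intro g hg
    rw [mem_Cz] at hg ⊢
    obtain ⟨t, ht⟩ := exists_pow_eq_self_of_coprime hco
    have h2 : (v * w) ^ (orderOf v) = w ^ (orderOf v) := by
      rw [hcm.mul_pow, pow_orderOf_eq_one, one_mul]
    have h3 : Commute (v * w) g := hg
    have h4 : Commute (((v * w) ^ orderOf v) ^ t) g := (h3.pow_left _).pow_left _
    rw [h2, ht] at h4
    exact h4
  have hvwZ : v * w ∉ center G := by
    intro hcen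
    apply hvZ
    rw [mem_center_iff]
    intro g
    have h2 : g ∈ Cz (v * w) := by
      rw [mem_Cz]; exact (mem_center_iff.mp hcen g).symm
    exact (mem_Cz.mp (h1 h2)).symm
  have h5 : Cz (v * w) = Cz v := h.Cz_eq_of_le hvw hvwZ hv hvZ h1
  rw [← h5]
  exact h1'

theorem TI.Cz_eq_of_mem_Tz (h : TI G N m) {x u : G} (hx : x ∈ N) (hxZ : x ∉ center G)
    (hu : u ∈ N) (huT : u ∈ Tz x) (huZ : u ∉ center G) : Cz u = Cz x := by
  symm
  apply h.Cz_eq_of_le hx hxZ hu huZ
  intro g hg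
  exact mem_Cz.mpr (mem_Tz.mp huT g (mem_Cz.mp hg)).symm

theorem TI.Cz_eq_of_good (h : TI G N m) {x w : G} (hx : x ∈ N) (hxZ : x ∉ center G)
    (hg : Good N x) (hw : w ∈ N) (hwC : w ∈ Cz x) (hwZ : w ∉ center G) : Cz w = Cz x :=
  h.Cz_eq_of_mem_Tz hx hxZ hw (hg w hw hwC) hwZ

theorem TI.Cz_eq_of_witness (h : TI G N m) (r : ℕ) {x y : G} (hx : x ∈ N)
    (hxZ : x ∉ center G) (hxr : Rel r x) (hy : y ∈ N) (hyZ : y ∉ center G)
    (hyc : (orderOf y).Coprime r) (hxy : x * y = y * x) : Cz x = Cz y := by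
  obtain ⟨j, hj⟩ := hxr
  exact h.Cz_eq_of_le hx hxZ hy hyZ
    (h.le_Cz_of_coprime hx hxZ hy hxy (coprime_orders r j hj hyc))

theorem TI.good_of_phi1 (h : TI G N m) (r : ℕ) [Fact r.Prime] {x : G} (hx : x ∈ N)
    (hxZ : x ∉ center G) (hxr : Rel r x) (hP : Phi1 N r x) : Good N x := by
  obtain ⟨y, hy, hyZ, hyc, hxy⟩ := hP
  have hC := h.Cz_eq_of_witness r hx hxZ hxr hy hyZ hyc hxy
  obtain ⟨j₀, hj₀⟩ := hxr
  intro k hk hkC
  obtain ⟨j, q, hcop, hq1, hq2⟩ := exists_split r k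
  apply mem_of_pow_mem_of_coprime _ hcop
  · have h1 : k ^ r ^ j ∈ N := N.pow_mem hk _
    have h2 : x * k ^ r ^ j = k ^ r ^ j * x :=
      (show Commute x k from mem_Cz.mp hkC).pow_right _
    have h3 := h.le_Cz_of_coprime hx hxZ h1 h2 (coprime_orders r j₀ hj₀ hq2)
    rw [mem_centralizer_iff]
    intro c hc
    exact (mem_Cz.mp (h3 hc)).symm
  · have h1 : k ^ q ∈ N := N.pow_mem hk _
    have hkCy : k ∈ Cz y := hC ▸ hkC
    have h2 : y * k ^ q = k ^ q * y := (show Commute y k from mem_Cz.mp hkCy).pow_right _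
    have h3 := h.le_Cz_of_coprime hy hyZ h1 h2 (coprime_orders r j hq1 hyc).symm
    rw [mem_centralizer_iff]
    intro c hc
    have hc' : c ∈ Cz y := hC ▸ hc
    exact (mem_Cz.mp (h3 hc')).symm

/-- Isaacs' trick inside `N`. -/
theorem TI.pow_mem_center (h : TI G N m) {x y : G} (hx : x ∈ N) (hxZ : x ∉ center G)
    (hyN : y ∈ N) (hy : y ∈ Cz x) (hyT : y ∉ Tz x) (k : ℕ) (hk : x ^ k ∈ center G) :
    y ^ k ∈ center G := by
  by_contra hyk
  have hyZ : y ∉ center G := fun hc => hyT (center_le_Tz x hc)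
  have hxy : Commute x y := mem_Cz.mp hy
  have hxyN : x * y ∈ N := N.mul_mem hx hyN
  have hykN : y ^ k ∈ N := N.pow_mem hyN k
  have hwZ : x * y ∉ center G := by
    intro hc
    apply hyT
    have h1 : y = x⁻¹ * (x * y) := by group
    rw [h1]
    exact (Tz x).mul_mem ((Tz x).inv_mem (self_mem_Tz x)) (center_le_Tz x hc)
  have hxTw : x ∉ Tz (x * y) := by
    intro hc
    have h1 : Cz x = Cz (x * y) := h.Cz_eq_of_mem_Tz hxyN hwZ hx hc hxZ
    have h2 : x * y ∈ Tz x := by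
      rw [Tz_congr h1]
      exact self_mem_Tz (x * y)
    apply hyT
    have h3 : y = x⁻¹ * (x * y) := by group
    rw [h3]
    exact (Tz x).mul_mem ((Tz x).inv_mem (self_mem_Tz x)) h2
  have hwk : (x * y) ^ k = x ^ k * y ^ k := hxy.mul_pow k
  have h3 : y ^ k ∈ Tz (x * y) := by
    have h4 : y ^ k = (x ^ k)⁻¹ * (x * y) ^ k := by rw [hwk]; group
    rw [h4]
    exact (Tz (x * y)).mul_mem ((Tz (x * y)).inv_mem (center_le_Tz _ hk))
      ((Tz (x * y)).pow_mem (self_mem_Tz (x * y)) k)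
  have h4 : Cz (y ^ k) = Cz (x * y) := h.Cz_eq_of_mem_Tz hxyN hwZ hykN h3 hyk
  have h5 : Cz (y ^ k) = Cz y :=
    h.Cz_eq_of_mem_Tz hyN hyZ hykN ((Tz y).pow_mem (self_mem_Tz y) k) hyk
  have h6 : Cz (x * y) = Cz y := h4.symm.trans h5
  have h7 : y ∈ Tz (x * y) := by
    rw [Tz_congr h6]
    exact self_mem_Tz y
  apply hxTw
  have h8 : (x * y) * y⁻¹ ∈ Tz (x * y) :=
    (Tz (x * y)).mul_mem (self_mem_Tz (x * y)) ((Tz (x * y)).inv_mem h7)
  rwa [mul_inv_cancel_right] at h8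

/-- a non-good `r`-element has centralizer in `N` of exponent `r` modulo the centre -/
theorem TI.exp_of_not_good (h : TI G N m) (r : ℕ) [Fact r.Prime] {x : G} (hx : x ∈ N)
    (hxZ : x ∉ center G) (hxr : Rel r x) (hng : ¬ Good N x) :
    ∀ k ∈ N, k ∈ Cz x → k ^ r ∈ center G := by
  classical
  unfold Good at hng
  push Not at hng
  obtain ⟨y₀, hy₀N, hy₀C, hy₀T⟩ := hng
  obtain ⟨j, hj⟩ := hxr
  have hex : ∃ e : ℕ, x ^ r ^ e ∈ center G := ⟨j, by rw [hj]; exact one_mem _⟩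
  have he := Nat.find_spec hex
  have he0 : Nat.find hex ≠ 0 := by
    intro h0
    rw [h0, pow_zero, pow_one] at he
    exact hxZ he
  obtain ⟨e', he'⟩ := Nat.exists_eq_succ_of_ne_zero he0
  have hx₁Z : x ^ r ^ e' ∉ center G := Nat.find_min hex (by omega : e' < Nat.find hex)
  have hx₁r : (x ^ r ^ e') ^ r ∈ center G := by
    rw [← pow_mul, ← pow_succ, ← Nat.succ_eq_add_one, ← he']
    exact he
  have hx₁N : x ^ r ^ e' ∈ N := N.pow_mem hx _
  have hCz : Cz x = Cz (x ^ r ^ e') := by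
    apply h.Cz_eq_of_le hx hxZ hx₁N hx₁Z
    intro g hg
    rw [mem_Cz] at hg ⊢
    exact (show Commute x g from hg).pow_left _
  have key : ∀ y ∈ N, y ∈ Cz x → y ∉ Tz x → y ^ r ∈ center G := by
    intro y hyN hyC hyT
    exact h.pow_mem_center hx₁N hx₁Z hyN (hCz ▸ hyC) (by rw [← Tz_congr hCz]; exact hyT) r hx₁r
  intro k hk hkC
  by_cases hkT : k ∈ Tz x
  · have h1 : k * y₀ ∉ Tz x := by
      intro hc
      apply hy₀T
      have e : y₀ = k⁻¹ * (k * y₀) := by group
      rw [e]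
      exact (Tz x).mul_mem ((Tz x).inv_mem hkT) hc
    have h2 := key (k * y₀) (N.mul_mem hk hy₀N) ((Cz x).mul_mem hkC hy₀C) h1
    have h3 := key y₀ hy₀N hy₀C hy₀T
    have hcomm : Commute k y₀ := ((mem_centralizer_iff.mp hkT) y₀ hy₀C).symm
    rw [hcomm.mul_pow] at h2
    have e : k ^ r = (k ^ r * y₀ ^ r) * (y₀ ^ r)⁻¹ := by group
    rw [e]
    exact (center G).mul_mem h2 ((center G).inv_mem h3)
  · exact key k hk hkC hkT

end Fin

end Cfsg.Agent.Lib.Helper9.TwoIdx
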