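import Cfsg.Agent.Lib.Helper9.TwoIdx2

set_option autoImplicit false
set_option linter.unusedSectionVars false
set_option linter.style.haveILetI false

namespace Cfsg.Agent.Lib.Helper9.TwoIdx

open Subgroup
open Cfsg.Agent.Lib.Helper69 (Cz Tz mem_Cz mem_Tz self_mem_Cz self_mem_Tz center_le_Tz Tz_congr
  mem_of_pow_mem_of_coprime exists_primePow_pow_not_mem)
open Cfsg.Agent.Lib.Helper1 (card_sup_mul_card_inf)

variable {G : Type*} [Group G] [Finite G] {N : Subgroup G} {m : ℕ}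

/-- the centralizer of a non-central element of `N` contains a non-central `r`-element -/
theorem TI.exists_relem (h : TI G N m) (r : ℕ) [Fact r.Prime] {x₁ : G} (hx₁ : x₁ ∈ N)
    (hx₁Z : x₁ ∉ center G) (hx₁r : Rel r x₁) {v : G} (hv : v ∈ N) (hvZ : v ∉ center G) :
    ∃ x ∈ Cz v, x ∉ center G ∧ Rel r x := by
  by_contra hcon
  push Not at hcon
  obtain ⟨Q, -, hQC, hQp, hQcard⟩ := exists_max_pgroup r (Cz v) ⊥ IsPGroup.of_bot bot_le
  have hQZ : ∀ q ∈ Q, q ∈ center G := by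
    intro q hq
    by_contra hqZ
    apply hcon q (hQC hq) hqZ
    obtain ⟨k, hk⟩ := hQp ⟨q, hq⟩
    exact ⟨k, congrArg Subtype.val hk⟩
  obtain ⟨j, hj⟩ := hx₁r
  have hcard : r ^ (Nat.card (Cz x₁)).factorization r ≤ Nat.card Q := by
    rw [h.card_Cz_eq hx₁ hx₁Z hv hvZ, hQcard]
  have hQle : Q ≤ Cz x₁ := fun q hq => center_le_Cz _ (hQZ q hq)
  have h1 := mem_of_commutes_max r hQle hQp hcard (self_mem_Cz x₁) j hj
    (fun q hq => (mem_center_iff.mp (hQZ q hq) x₁))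
  exact hx₁Z (hQZ x₁ h1)

/-- A good element `a` all of whose commuting `r'`-elements of `N` are central cannot have its
centralizer normalized by a non-commuting `r`-element `u` having a non-central `r'`-partner. -/
theorem TI.false_of_good_phi0 (h : TI G N m) (r : ℕ) [Fact r.Prime] {a u y : G}
    (ha : a ∈ N) (haZ : a ∉ center G) (hag : Good N a)
    (ha0 : ∀ y ∈ N, y ∈ Cz a → (orderOf y).Coprime r → y ∈ center G)
    (hu : u ∈ N) (hur : Rel r u) (hun : u ∈ normalizer ((Cz a : Subgroup G) : Set G))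
    (hy : y ∈ N) (hyZ : y ∉ center G) (hyc : (orderOf y).Coprime r) (huy : u * y = y * u)
    (hau : a * u ≠ u * a) : False := by
  have hN := h.normal
  have huZ : u ∉ center G := fun hc => hau (mem_center_iff.mp hc a)
  obtain ⟨s, hs, j, k, hk, hkj⟩ := exists_primePow_pow_not_mem (center G) (orderOf y)
    (orderOf_pos y) y (pow_orderOf_eq_one y) hyZ
  have hy'N : y ^ k ∈ N := N.pow_mem hy k
  have hy'c : (orderOf (y ^ k)).Coprime r :=
    Nat.Coprime.coprime_dvd_left (orderOf_pow_dvd k) hyc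
  have huy' : u * y ^ k = y ^ k * u := (show Commute u y from huy).pow_right k
  have hsr : s ≠ r := by
    rintro rfl
    apply hk
    rw [eq_one_of_rel_of_coprime s j hkj hy'c]
    exact one_mem _
  haveI : Fact s.Prime := ⟨hs⟩
  have hCuy : Cz u = Cz (y ^ k) := h.Cz_eq_of_witness r hu huZ hur hy'N hk hy'c huy'
  have hug : Good N u := h.good_of_phi1 r hu huZ hur ⟨y ^ k, hy'N, hk, hy'c, huy'⟩
  obtain ⟨e, he⟩ := hur
  have step1 : ∀ d ∈ Cz a, ∀ i : ℕ, d ^ s ^ i = 1 → d ∈ Cz u := by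
    intro d hd i hdi
    have hconj : u⁻¹ * d * u ∈ Cz a := conj_inv_mem_of_mem_normalizer hun hd
    have hcC : d⁻¹ * (u⁻¹ * d * u) ∈ Cz a := (Cz a).mul_mem ((Cz a).inv_mem hd) hconj
    have hcN : d⁻¹ * (u⁻¹ * d * u) ∈ N := by
      have h1 : d⁻¹ * u⁻¹ * d⁻¹⁻¹ ∈ N := hN.conj_mem _ (N.inv_mem hu) _
      have h2 : d⁻¹ * (u⁻¹ * d * u) = (d⁻¹ * u⁻¹ * d⁻¹⁻¹) * u := by group
      rw [h2]
      exact N.mul_mem h1 hu
    have hcT := hag _ hcN hcC
    obtain ⟨c, hcdef⟩ : ∃ c, c = d⁻¹ * (u⁻¹ * d * u) := ⟨_, rfl⟩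
    rw [← hcdef] at hcC hcN hcT
    have hdc : Commute d c := (mem_centralizer_iff.mp hcT) d hd
    have hdc' : d * c = u⁻¹ * d * u := by rw [hcdef]; group
    have hpow : (d * c) ^ s ^ i = 1 := by
      have e1 : u⁻¹ * d * u = u⁻¹ * d * u⁻¹⁻¹ := by rw [inv_inv]
      rw [hdc', e1, conj_pow, hdi]
      group
    rw [hdc.mul_pow, hdi, one_mul] at hpow
    have hcc : (orderOf c).Coprime r := by
      have h1 : orderOf c ∣ s ^ i := orderOf_dvd_of_pow_eq_one hpow
      exact Nat.Coprime.coprime_dvd_left h1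
        (((Nat.coprime_primes hs (Fact.out : r.Prime)).mpr hsr).pow_left i)
    have hcZ : c ∈ center G := ha0 c hcN hcC hcc
    have hiter : ∀ n : ℕ, (u ^ n)⁻¹ * d * u ^ n = d * c ^ n := by
      intro n
      induction n with
      | zero => simp
      | succ n ih =>
        have h1 : (u ^ (n + 1))⁻¹ * d * u ^ (n + 1) = u⁻¹ * ((u ^ n)⁻¹ * d * u ^ n) * u := by
          rw [pow_succ]; group
        rw [h1, ih]
        have hcn : u⁻¹ * (d * c ^ n) * u = (u⁻¹ * d * u) * c ^ n := by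
          have h2 := mem_center_iff.mp ((center G).pow_mem hcZ n) u
          calc u⁻¹ * (d * c ^ n) * u = u⁻¹ * d * (c ^ n * u) := by group
            _ = u⁻¹ * d * (u * c ^ n) := by rw [h2]
            _ = (u⁻¹ * d * u) * c ^ n := by group
        rw [hcn, ← hdc', pow_succ', mul_assoc]
    have h3 := hiter (r ^ e)
    rw [he, inv_one, one_mul, mul_one] at h3
    have hc1 : c ^ r ^ e = 1 := by
      have h4 : d * 1 = d * c ^ r ^ e := by rw [mul_one]; exact h3
      exact (mul_left_cancel h4).symm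
    have hc : c = 1 := eq_one_of_rel_of_coprime r e hc1 hcc
    rw [mem_Cz]
    rw [hc, mul_one] at hdc'
    calc u * d = u * (u⁻¹ * d * u) := by rw [← hdc']
      _ = d * u := by group
  obtain ⟨S, -, hSC, hSp, hScard⟩ := exists_max_pgroup s (Cz a) ⊥ IsPGroup.of_bot bot_le
  have hSu : S ≤ Cz u := by
    intro d hd
    obtain ⟨i, hi⟩ := hSp ⟨d, hd⟩
    exact step1 d (hSC hd) i (congrArg Subtype.val hi)
  have hcard : s ^ (Nat.card (Cz u)).factorization s ≤ Nat.card S := by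
    rw [h.card_Cz_eq hu huZ ha haZ, hScard]
  have hy'Cu : y ^ k ∈ Cz u := mem_Cz.mpr huy'
  have hy'T : y ^ k ∈ Tz u := hug _ hy'N hy'Cu
  have hmem := mem_of_commutes_max s hSu hSp hcard hy'Cu j hkj
    (fun q hq => ((mem_centralizer_iff.mp hy'T) q (hSu hq)).symm)
  have h5 : y ^ k ∈ Cz a := hSC hmem
  have h6 : a ∈ Cz (y ^ k) := mem_Cz.mpr (mem_Cz.mp h5).symm
  rw [← hCuy] at h6
  exact hau (mem_Cz.mp h6).symm

/-- If the `r`-element `g` of `N` normalizes the centralizer of the good element `a`, then the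
centralizer of `g` in `N` is not larger than that of `a`. -/
theorem TI.card_K_le (h : TI G N m) (r : ℕ) [Fact r.Prime]
    (hrel : ∀ x : G, ∀ j : ℕ, x ^ r ^ j = 1 → x ∈ N) {a g : G}
    (ha : a ∈ N) (haZ : a ∉ center G) (hag : Good N a)
    (hg : g ∈ N) (hgZ : g ∉ center G) (hgr : Rel r g)
    (hgn : g ∈ normalizer ((Cz a : Subgroup G) : Set G)) :
    Nat.card (Cz g ⊓ N : Subgroup G) ≤ Nat.card (Cz a ⊓ N : Subgroup G) := by
  classical
  have hN := h.normal
  obtain ⟨e, he⟩ := hgr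
  have key : ∀ d ∈ Cz a, d ∈ (Cz g ⊓ Cz a) ⊔ (Cz a ⊓ N) := by
    intro d hd
    obtain ⟨j, q, hcop, hq1, hq2⟩ := exists_split r d
    apply mem_of_pow_mem_of_coprime _ hcop
    · obtain ⟨d', hd'def⟩ : ∃ d', d' = d ^ r ^ j := ⟨_, rfl⟩
      rw [← hd'def] at hq2 ⊢
      have hd' : d' ∈ Cz a := by rw [hd'def]; exact (Cz a).pow_mem hd _
      let A : Subgroup G :=
        { carrier := {k | k ∈ Cz a ∧ k ∈ N ∧ k ^ orderOf d' = 1}
          one_mem' := ⟨one_mem _, one_mem _, one_pow _⟩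
          mul_mem' := by
            rintro k₁ k₂ ⟨h1, h2, h3⟩ ⟨h1', h2', h3'⟩
            refine ⟨(Cz a).mul_mem h1 h1', N.mul_mem h2 h2', ?_⟩
            have hc : Commute k₁ k₂ := ((mem_centralizer_iff.mp (hag k₁ h2 h1)) k₂ h1').symm
            rw [hc.mul_pow, h3, h3', one_mul]
          inv_mem' := by
            rintro k ⟨h1, h2, h3⟩
            exact ⟨(Cz a).inv_mem h1, N.inv_mem h2, by rw [inv_pow, h3, inv_one]⟩ }
      have hAmem : ∀ k, k ∈ A ↔ (k ∈ Cz a ∧ k ∈ N ∧ k ^ orderOf d' = 1) := fun k => Iff.rfl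
      have hAr : ¬ r ∣ Nat.card A := by
        intro hdvd
        obtain ⟨k, hk⟩ := exists_prime_orderOf_dvd_card' r hdvd
        have h1 : (k : G) ^ orderOf d' = 1 := k.2.2.2
        have h2 : orderOf (k : G) = r := by rw [Subgroup.orderOf_coe]; exact hk
        have h3 : r ∣ orderOf d' := by rw [← h2]; exact orderOf_dvd_of_pow_eq_one h1
        exact (Nat.Prime.coprime_iff_not_dvd Fact.out).mp hq2.symm h3
      have hXcard : Nat.card ((fun k => d' * k) '' (A : Set G)) = Nat.card A :=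
        Nat.card_image_of_injective (mul_right_injective d') _
      have hinv : ∀ x ∈ (fun k => d' * k) '' (A : Set G),
          g⁻¹ * x * g ∈ (fun k => d' * k) '' (A : Set G) := by
        rintro x ⟨k, hk, rfl⟩
        have hk' := (hAmem k).mp hk
        have hconj : g⁻¹ * d' * g ∈ Cz a := conj_inv_mem_of_mem_normalizer hgn hd'
        have hcC : d'⁻¹ * (g⁻¹ * d' * g) ∈ Cz a := (Cz a).mul_mem ((Cz a).inv_mem hd') hconj
        have hcN : d'⁻¹ * (g⁻¹ * d' * g) ∈ N := by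
          have h1 : d'⁻¹ * g⁻¹ * d'⁻¹⁻¹ ∈ N := hN.conj_mem _ (N.inv_mem hg) _
          have h2 : d'⁻¹ * (g⁻¹ * d' * g) = (d'⁻¹ * g⁻¹ * d'⁻¹⁻¹) * g := by group
          rw [h2]
          exact N.mul_mem h1 hg
        have hcT := hag _ hcN hcC
        have hdc : Commute d' (d'⁻¹ * (g⁻¹ * d' * g)) := (mem_centralizer_iff.mp hcT) d' hd'
        have hcq : (d'⁻¹ * (g⁻¹ * d' * g)) ^ orderOf d' = 1 := by
          have h1 : (d' * (d'⁻¹ * (g⁻¹ * d' * g))) ^ orderOf d' = 1 := by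
            have e1 : d' * (d'⁻¹ * (g⁻¹ * d' * g)) = g⁻¹ * d' * g⁻¹⁻¹ := by group
            rw [e1, conj_pow, pow_orderOf_eq_one]
            group
          rw [hdc.mul_pow, pow_orderOf_eq_one, one_mul] at h1
          exact h1
        have hkconjC : g⁻¹ * k * g ∈ Cz a := conj_inv_mem_of_mem_normalizer hgn hk'.1
        have hkconjN : g⁻¹ * k * g ∈ N := by
          have h1 := hN.conj_mem k hk'.2.1 g⁻¹
          rwa [inv_inv] at h1
        have hkq : (g⁻¹ * k * g) ^ orderOf d' = 1 := by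
          have e1 : g⁻¹ * k * g = g⁻¹ * k * g⁻¹⁻¹ := by rw [inv_inv]
          rw [e1, conj_pow, hk'.2.2]
          group
        refine ⟨(d'⁻¹ * (g⁻¹ * d' * g)) * (g⁻¹ * k * g), ?_, ?_⟩
        · exact A.mul_mem ((hAmem _).mpr ⟨hcC, hcN, hcq⟩)
            ((hAmem _).mpr ⟨hkconjC, hkconjN, hkq⟩)
        · show d' * ((d'⁻¹ * (g⁻¹ * d' * g)) * (g⁻¹ * k * g)) = g⁻¹ * (d' * k) * g
          group
      have hXr : ¬ r ∣ Nat.card ((fun k => d' * k) '' (A : Set G)) := by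
        rw [hXcard]; exact hAr
      obtain ⟨x, hxX, hxfix⟩ := exists_fixed_of_conj r _ (Set.toFinite _) g e he hinv hXr
      obtain ⟨k, hk, rfl⟩ := hxX
      have hk' := (hAmem k).mp hk
      have hxfix' : g⁻¹ * (d' * k) * g = d' * k := hxfix
      have h0 : d' * k ∈ Cz g := by
        rw [mem_Cz]
        calc g * (d' * k) = g * (g⁻¹ * (d' * k) * g) := by rw [hxfix']
          _ = d' * k * g := by group
      have h1 : d' * k ∈ Cz g ⊓ Cz a := ⟨h0, (Cz a).mul_mem hd' hk'.1⟩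
      have h2 : k⁻¹ ∈ Cz a ⊓ N := ⟨(Cz a).inv_mem hk'.1, N.inv_mem hk'.2.1⟩
      have h3 : d' = (d' * k) * k⁻¹ := by group
      rw [h3]
      exact Subgroup.mul_mem_sup h1 h2
    · have h1 : d ^ q ∈ N := hrel _ j hq1
      exact (le_sup_right : Cz a ⊓ N ≤ (Cz g ⊓ Cz a) ⊔ (Cz a ⊓ N)) ⟨(Cz a).pow_mem hd _, h1⟩
  have hle : N ⊔ Cz a ≤ N ⊔ Cz g := by
    apply sup_le le_sup_left
    intro d hd
    exact (sup_le (inf_le_left.trans le_sup_right) (inf_le_right.trans le_sup_left) :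
      (Cz g ⊓ Cz a) ⊔ (Cz a ⊓ N) ≤ N ⊔ Cz g) (key d hd)
  haveI := hN
  have e1 := card_sup_mul_card_inf N (Cz a)
  have e2 := card_sup_mul_card_inf N (Cz g)
  have e3 := h.card_Cz_eq ha haZ hg hgZ
  have e4 : Nat.card (N ⊔ Cz a : Subgroup G) ≤ Nat.card (N ⊔ Cz g : Subgroup G) :=
    Subgroup.card_le_of_le hle
  rw [inf_comm (Cz g) N, inf_comm (Cz a) N]
  by_contra hcon
  push Not at hcon
  have hpos : 0 < Nat.card (N ⊔ Cz a : Subgroup G) := Nat.card_pos
  have h5 : Nat.card (N ⊔ Cz a : Subgroup G) * Nat.card (N ⊓ Cz a : Subgroup G)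
      < Nat.card (N ⊔ Cz g : Subgroup G) * Nat.card (N ⊓ Cz g : Subgroup G) :=
    calc Nat.card (N ⊔ Cz a : Subgroup G) * Nat.card (N ⊓ Cz a : Subgroup G)
        < Nat.card (N ⊔ Cz a : Subgroup G) * Nat.card (N ⊓ Cz g : Subgroup G) :=
          Nat.mul_lt_mul_of_pos_left hcon hpos
      _ ≤ Nat.card (N ⊔ Cz g : Subgroup G) * Nat.card (N ⊓ Cz g : Subgroup G) :=
          Nat.mul_le_mul_right _ e4
  rw [e1, e2, e3] at h5
  exact lt_irrefl _ h5

end Cfsg.Agent.Lib.Helper9.TwoIdx
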