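import Cfsg.Agent.Lib.Helper9.TwoIdx3

set_option autoImplicit false
set_option linter.unusedSectionVars false
set_option linter.style.haveILetI false

namespace Cfsg.Agent.Lib.Helper9.TwoIdx

open Subgroup
open Cfsg.Agent.Lib.Helper69 (Cz Tz mem_Cz mem_Tz self_mem_Cz self_mem_Tz center_le_Tz Tz_congr
  mem_of_pow_mem_of_coprime exists_primePow_pow_not_mem)
open Cfsg.Agent.Lib.Helper67 (mem_smul_sylow_iff)

variable {G : Type*} [Group G]

theorem mem_normalizer_inf_normal {H N : Subgroup G} (hN : N.Normal) {b : G}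
    (hb : b ∈ normalizer (H : Set G)) : b ∈ normalizer ((H ⊓ N : Subgroup G) : Set G) := by
  rw [mem_normalizer_iff]
  intro d
  have h1 := mem_normalizer_iff.mp hb d
  constructor
  · intro hd
    have hd' := Subgroup.mem_inf.mp hd
    exact Subgroup.mem_inf.mpr ⟨h1.mp hd'.1, hN.conj_mem d hd'.2 b⟩
  · intro hd
    have hd' := Subgroup.mem_inf.mp hd
    refine Subgroup.mem_inf.mpr ⟨h1.mpr hd'.1, ?_⟩
    have h2 := hN.conj_mem _ hd'.2 b⁻¹
    have e : b⁻¹ * (b * d * b⁻¹) * b⁻¹⁻¹ = d := by group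
    rwa [e] at h2

theorem comm_symm_mem_center {a b : G} (hz : a⁻¹ * b⁻¹ * a * b ∈ center G) :
    b⁻¹ * a⁻¹ * b * a ∈ center G := by
  have e : b⁻¹ * a⁻¹ * b * a = (a⁻¹ * b⁻¹ * a * b)⁻¹ := by group
  rw [e]
  exact (center G).inv_mem hz

theorem card_K_conj {N : Subgroup G} (hN : N.Normal) (c x : G) :
    Nat.card (Cz (c * x * c⁻¹) ⊓ N : Subgroup G) = Nat.card (Cz x ⊓ N : Subgroup G) := by
  have h1 : (Cz (c * x * c⁻¹) ⊓ N : Subgroup G)
      = (Cz x ⊓ N : Subgroup G).map (MulAut.conj c).toMonoidHom := by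
    ext k
    rw [Subgroup.mem_map_equiv, Subgroup.mem_inf, Subgroup.mem_inf, mem_Cz, mem_Cz]
    have e : (MulAut.conj c).symm k = c⁻¹ * k * c := by simp
    rw [e]
    constructor
    · rintro ⟨h1, h2⟩
      refine ⟨?_, ?_⟩
      · calc x * (c⁻¹ * k * c) = c⁻¹ * ((c * x * c⁻¹) * k) * c := by group
          _ = c⁻¹ * (k * (c * x * c⁻¹)) * c := by rw [h1]
          _ = c⁻¹ * k * c * x := by group
      · have h3 := hN.conj_mem k h2 c⁻¹
        rwa [inv_inv] at h3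
    · rintro ⟨h1, h2⟩
      refine ⟨?_, ?_⟩
      · calc (c * x * c⁻¹) * k = c * (x * (c⁻¹ * k * c)) * c⁻¹ := by group
          _ = c * ((c⁻¹ * k * c) * x) * c⁻¹ := by rw [h1]
          _ = k * (c * x * c⁻¹) := by group
      · have h3 := hN.conj_mem _ h2 c
        have e2 : c * (c⁻¹ * k * c) * c⁻¹ = k := by group
        rwa [e2] at h3
  rw [h1, Subgroup.card_map_of_injective (MulAut.conj c).injective]

variable [Finite G] {N : Subgroup G} {m r : ℕ} [Fact r.Prime]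

theorem TIr.mem_of_mem_sylow (h : TIr G N m r) (W : Sylow r G) {x : G} (hx : x ∈ W) :
    x ∈ N ∧ Rel r x := by
  obtain ⟨k, hk⟩ := W.isPGroup' ⟨x, hx⟩
  have hk' : x ^ r ^ k = 1 := congrArg Subtype.val hk
  exact ⟨h.relem x k hk', k, hk'⟩

theorem TIr.not_le_Cz (h : TIr G N m r) (W : Sylow r G) {v : G} (hv : v ∈ N)
    (hvZ : v ∉ center G) : ¬ (W : Subgroup G) ≤ Cz v := by
  intro hle
  have h1 := Subgroup.index_dvd_of_le hle
  rw [h.ti.idx v hv hvZ] at h1
  exact W.not_dvd_index (dvd_trans h.rm h1)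

theorem TIr.center_sylow (h : TIr G N m r) (W : Sylow r G) {z : G} (hz : z ∈ W)
    (hcomm : ∀ b ∈ W, z * b = b * z) : z ∈ center G := by
  by_contra hzZ
  apply h.not_le_Cz W (h.mem_of_mem_sylow W hz).1 hzZ
  intro b hb
  exact mem_Cz.mpr (hcomm b hb)

/-- core of `no_phi0` -/
theorem TIr.no_phi0_aux (h : TIr G N m r) (W : Sylow r G) {a : G} (haW : a ∈ W)
    (haZ : a ∉ center G) (hcomm : ∀ b ∈ W, a⁻¹ * b⁻¹ * a * b ∈ center G) (hP : Phi1 N r a)
    {g : G} (hgZ : g ∉ center G) (hP0 : ¬ Phi1 N r g)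
    (Q : Subgroup G) (hgQ : g ∈ Q) (hQC : Q ≤ Cz g) (hQW : Q ≤ W) (hQp : IsPGroup r Q)
    (hQcard : Nat.card Q = r ^ (Nat.card (Cz g)).factorization r) : False := by
  have hr : r.Prime := Fact.out
  obtain ⟨y, hyN, hyZ, hyc, hay⟩ := hP
  obtain ⟨haN, har⟩ := h.mem_of_mem_sylow W haW
  have hgW : g ∈ W := hQW hgQ
  obtain ⟨hgN, hgr⟩ := h.mem_of_mem_sylow W hgW
  have hag : Good N a := h.ti.good_of_phi1 r haN haZ har ⟨y, hyN, hyZ, hyc, hay⟩
  have hyCa : y ∈ Cz a := mem_Cz.mpr hay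
  have hga : g ∉ Cz a := by
    intro hc
    have h1 : Cz g = Cz a := h.ti.Cz_eq_of_good haN haZ hag hgN hc hgZ
    apply hP0
    refine ⟨y, hyN, hyZ, hyc, ?_⟩
    rw [← h1] at hyCa
    exact mem_Cz.mp hyCa
  have hgn : g ∈ normalizer ((Cz a : Subgroup G) : Set G) :=
    mem_normalizer_Cz_of_comm (hcomm g hgW)
  have han : a ∈ normalizer ((Cz g : Subgroup G) : Set G) :=
    mem_normalizer_Cz_of_comm (comm_symm_mem_center (hcomm g hgW))
  have hag_ne : g * a ≠ a * g := fun hc => hga (mem_Cz.mpr hc.symm)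
  have hg0 : ∀ y' ∈ N, y' ∈ Cz g → (orderOf y').Coprime r → y' ∈ center G := by
    intro y' hy'N hy'C hy'c
    by_contra hy'Z
    exact hP0 ⟨y', hy'N, hy'Z, hy'c, mem_Cz.mp hy'C⟩
  have hgng : ¬ Good N g := by
    intro hgg
    exact h.ti.false_of_good_phi0 r hgN hgZ hgg hg0 haN har han hyN hyZ hyc hay hag_ne
  have hexp := h.ti.exp_of_not_good r hgN hgZ hgr hgng
  have hQa : ∀ x ∈ Q, x ∈ Cz a → x ∈ center G := by
    intro x hxQ hxa
    by_contra hxZ
    have hxN : x ∈ N := (h.mem_of_mem_sylow W (hQW hxQ)).1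
    have h1 : Cz x = Cz a := h.ti.Cz_eq_of_good haN haZ hag hxN hxa hxZ
    have h2 : g ∈ Cz x := mem_Cz.mpr (mem_Cz.mp (hQC hxQ)).symm
    rw [h1] at h2
    exact hga h2
  have hM : ∀ u ∈ Cz a ⊓ N, ∀ v ∈ Cz a ⊓ N, u * v = v * u := fun u hu v hv =>
    ((mem_centralizer_iff.mp (hag u hu.2 hu.1)) v hv.1).symm
  have hnorm : ∀ b ∈ W, b ∈ normalizer ((Cz a ⊓ N : Subgroup G) : Set G) := fun b hb =>
    mem_normalizer_inf_normal h.ti.normal (mem_normalizer_Cz_of_comm (hcomm b hb))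
  have hgr' : g ^ r ∈ center G := hexp g hgN (self_mem_Cz g)
  have hQT : ∀ x ∈ Q, x ∈ Tz g := by
    intro x hxQ
    by_contra hxT
    have hxW := hQW hxQ
    have hxN : x ∈ N := (h.mem_of_mem_sylow W hxW).1
    have hxCg : x ∈ Cz g := hQC hxQ
    have hxr' : x ^ r ∈ center G := hexp x hxN hxCg
    have key := fpf_pair r (Cz a ⊓ N) hM g x (hnorm g hgW) (hnorm x hxW) (mem_Cz.mp hxCg)
      hgr' hxr' ?_ y ⟨hyCa, hyN⟩
    · apply hyZ
      exact mem_of_pow_mem_of_coprime (center G) hyc.symm key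
        (by rw [pow_orderOf_eq_one]; exact one_mem _)
    · intro i j hi hj hij w hw hcw
      by_contra hwZ
      have h1 : Cz w = Cz a := h.ti.Cz_eq_of_good haN haZ hag hw.2 hw.1 hwZ
      have h2 : g ^ i * x ^ j ∈ Cz a := by
        rw [← h1, mem_Cz]
        exact hcw.symm
      have h3 : g ^ i * x ^ j ∈ Q := Q.mul_mem (Q.pow_mem hgQ i) (Q.pow_mem hxQ j)
      have h4 : g ^ i * x ^ j ∈ center G := hQa _ h3 h2
      by_cases hj0 : j = 0
      · have hi0 : i ≠ 0 := by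
          rcases hij with h5 | h5
          · exact h5
          · exact absurd hj0 h5
        rw [hj0, pow_zero, mul_one] at h4
        apply hgZ
        have hcop : Nat.Coprime i r :=
          ((Nat.Prime.coprime_iff_not_dvd hr).mpr
            (Nat.not_dvd_of_pos_of_lt (Nat.pos_of_ne_zero hi0) hi)).symm
        exact mem_of_pow_mem_of_coprime (center G) hcop h4 hgr'
      · apply hxT
        have hcop : Nat.Coprime j r :=
          ((Nat.Prime.coprime_iff_not_dvd hr).mpr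
            (Nat.not_dvd_of_pos_of_lt (Nat.pos_of_ne_zero hj0) hj)).symm
        apply mem_of_pow_mem_of_coprime (Tz g) hcop
        · have e : x ^ j = (g ^ i)⁻¹ * (g ^ i * x ^ j) := by group
          rw [e]
          exact (Tz g).mul_mem ((Tz g).inv_mem ((Tz g).pow_mem (self_mem_Tz g) i))
            (center_le_Tz g h4)
        · exact center_le_Tz g hxr'
  apply hgng
  intro k hkN hkC
  obtain ⟨j, q, hcop, hq1, hq2⟩ := exists_split r k
  apply mem_of_pow_mem_of_coprime _ hcop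
  · exact center_le_Tz g (hg0 _ (N.pow_mem hkN _) ((Cz g).pow_mem hkC _) hq2)
  · have hkq : k ^ q ∈ Q := mem_of_commutes_max r hQC hQp (le_of_eq hQcard.symm)
      ((Cz g).pow_mem hkC _) j hq1
      (fun x hx => (mem_centralizer_iff.mp (hQT x hx)) (k ^ q) ((Cz g).pow_mem hkC _))
    exact hQT _ hkq

/-- If some non-central element `a` of the second centre of a Sylow `r`-subgroup commutes with a
non-central `r'`-element of `N`, then so does every non-central `r`-element. -/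
theorem TIr.no_phi0 (h : TIr G N m r) (W : Sylow r G) {a : G} (haW : a ∈ W)
    (haZ : a ∉ center G) (hcomm : ∀ b ∈ W, a⁻¹ * b⁻¹ * a * b ∈ center G) (hP : Phi1 N r a) :
    ∀ x ∈ N, x ∉ center G → Rel r x → Phi1 N r x := by
  intro x₀ hx₀N hx₀Z hx₀r
  by_contra hP0
  obtain ⟨j₀, hj₀⟩ := hx₀r
  have hz : IsPGroup r (zpowers x₀) := by
    obtain ⟨i, -, hi⟩ := (Nat.dvd_prime_pow Fact.out).mp (orderOf_dvd_of_pow_eq_one hj₀)
    exact IsPGroup.of_card (n := i) (by rw [Nat.card_zpowers, hi])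
  obtain ⟨Q, hxQ, hQC, hQp, hQcard⟩ := exists_max_pgroup r (Cz x₀) (zpowers x₀) hz
    (by rw [zpowers_le]; exact self_mem_Cz x₀)
  obtain ⟨W', hW'⟩ := hQp.exists_le_sylow
  obtain ⟨c, hc⟩ := MulAction.exists_smul_eq G W W'
  have hN := h.ti.normal
  have hcen : ∀ z : G, z ∈ center G → c * z * c⁻¹ ∈ center G := fun z hz =>
    (inferInstance : (center G).Normal).conj_mem z hz c
  have ha'W : c * a * c⁻¹ ∈ W' := by
    rw [← hc]
    refine (mem_smul_sylow_iff W c _).mpr ?_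
    have e : c⁻¹ * (c * a * c⁻¹) * c = a := by group
    rw [e]; exact haW
  have ha'Z : c * a * c⁻¹ ∉ center G := by
    intro hcz
    apply haZ
    have h1 := (inferInstance : (center G).Normal).conj_mem _ hcz c⁻¹
    have e : c⁻¹ * (c * a * c⁻¹) * c⁻¹⁻¹ = a := by group
    rwa [e] at h1
  have hcomm' : ∀ b ∈ W', (c * a * c⁻¹)⁻¹ * b⁻¹ * (c * a * c⁻¹) * b ∈ center G := by
    intro b hb
    rw [← hc] at hb
    have hb' := (mem_smul_sylow_iff W c b).mp hb
    have h1 := hcen _ (hcomm _ hb')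
    have e : c * (a⁻¹ * (c⁻¹ * b * c)⁻¹ * a * (c⁻¹ * b * c)) * c⁻¹
        = (c * a * c⁻¹)⁻¹ * b⁻¹ * (c * a * c⁻¹) * b := by group
    rwa [e] at h1
  have hP' : Phi1 N r (c * a * c⁻¹) := by
    obtain ⟨y, hyN, hyZ, hyc, hay⟩ := hP
    refine ⟨c * y * c⁻¹, hN.conj_mem y hyN c, ?_, ?_, ?_⟩
    · intro hcz
      apply hyZ
      have h1 := (inferInstance : (center G).Normal).conj_mem _ hcz c⁻¹
      have e : c⁻¹ * (c * y * c⁻¹) * c⁻¹⁻¹ = y := by group
      rwa [e] at h1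
    · have e : orderOf (c * y * c⁻¹) = orderOf y := by
        have h1 := MulEquiv.orderOf_eq (MulAut.conj c) y
        rwa [MulAut.conj_apply] at h1
      rw [e]; exact hyc
    · calc c * a * c⁻¹ * (c * y * c⁻¹) = c * (a * y) * c⁻¹ := by group
        _ = c * (y * a) * c⁻¹ := by rw [hay]
        _ = c * y * c⁻¹ * (c * a * c⁻¹) := by group
  exact h.no_phi0_aux W' ha'W ha'Z hcomm' hP' hx₀Z hP0 Q (hxQ (mem_zpowers x₀)) hQC hW' hQp hQcard

theorem TIr.card_K_eq (h : TIr G N m r) (W : Sylow r G) {a : G} (haW : a ∈ W)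
    (haZ : a ∉ center G) (hcomm : ∀ b ∈ W, a⁻¹ * b⁻¹ * a * b ∈ center G) (hP : Phi1 N r a)
    {g : G} (hgW : g ∈ W) (hgZ : g ∉ center G) :
    Nat.card (Cz g ⊓ N : Subgroup G) = Nat.card (Cz a ⊓ N : Subgroup G) := by
  have hall := h.no_phi0 W haW haZ hcomm hP
  obtain ⟨haN, har⟩ := h.mem_of_mem_sylow W haW
  obtain ⟨hgN, hgr⟩ := h.mem_of_mem_sylow W hgW
  have hag : Good N a := h.ti.good_of_phi1 r haN haZ har hP
  have hgg : Good N g := h.ti.good_of_phi1 r hgN hgZ hgr (hall g hgN hgZ hgr)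
  by_cases hc : g ∈ Cz a
  · rw [h.ti.Cz_eq_of_good haN haZ hag hgN hc hgZ]
  · have hgn : g ∈ normalizer ((Cz a : Subgroup G) : Set G) :=
      mem_normalizer_Cz_of_comm (hcomm g hgW)
    have han : a ∈ normalizer ((Cz g : Subgroup G) : Set G) :=
      mem_normalizer_Cz_of_comm (comm_symm_mem_center (hcomm g hgW))
    exact le_antisymm (h.ti.card_K_le r h.relem haN haZ hag hgN hgZ hgr hgn)
      (h.ti.card_K_le r h.relem hgN hgZ hgg haN haZ har han)

end Cfsg.Agent.Lib.Helper9.TwoIdx
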