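import Cfsg.Agent.Lib.Helper9.TwoIdx4

set_option autoImplicit false
set_option linter.unusedSectionVars false
set_option linter.style.haveILetI false

namespace Cfsg.Agent.Lib.Helper9.TwoIdx

open Subgroup
open Cfsg.Agent.Lib.Helper69 (Cz Tz mem_Cz mem_Tz self_mem_Cz self_mem_Tz center_le_Tz Tz_congr
  mem_of_pow_mem_of_coprime exists_primePow_pow_not_mem)
open Cfsg.Agent.Lib.Helper67 (mem_smul_sylow_iff)

variable {G : Type*} [Group G]

/-- if the commutator of `a` and `b` is central and `a ^ r` is central, then `b ^ r` commutes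
with `a` -/
theorem pow_mem_Cz_of_comm {a b : G} {r : ℕ} (hz : a⁻¹ * b⁻¹ * a * b ∈ center G)
    (har : a ^ r ∈ center G) : b ^ r ∈ Cz a := by
  have hz' := mem_center_iff.mp hz
  have e1 : b⁻¹ * a * b = a * (a⁻¹ * b⁻¹ * a * b) := by group
  have e2 : a * b * a⁻¹ = b * (a⁻¹ * b⁻¹ * a * b) := by
    have h1 : a * (a⁻¹ * b⁻¹ * a * b) = (a⁻¹ * b⁻¹ * a * b) * a := hz' a
    calc a * b * a⁻¹ = b * (a * (a⁻¹ * b⁻¹ * a * b)) * a⁻¹ := by group
      _ = b * ((a⁻¹ * b⁻¹ * a * b) * a) * a⁻¹ := by rw [h1]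
      _ = b * (a⁻¹ * b⁻¹ * a * b) := by group
  generalize a⁻¹ * b⁻¹ * a * b = z at hz' e1 e2
  have hbz : Commute b z := hz' b
  have haz : Commute a z := hz' a
  have h3 : b⁻¹ * a ^ r * b = a ^ r * z ^ r := by
    have h := @conj_pow G _ r b⁻¹ a
    rw [inv_inv] at h
    rw [← h, e1, haz.mul_pow]
  have h4 : b⁻¹ * a ^ r * b = a ^ r := by
    rw [mul_assoc, ← (mem_center_iff.mp har) b, inv_mul_cancel_left]
  have h5 : z ^ r = 1 := by
    have h := h3.symm.trans h4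
    exact mul_left_cancel (h.trans (mul_one _).symm)
  have h6 : a * b ^ r * a⁻¹ = b ^ r := by
    rw [← conj_pow, e2, hbz.mul_pow, h5, mul_one]
  rw [mem_Cz]
  calc a * b ^ r = (a * b ^ r * a⁻¹) * a := by group
    _ = b ^ r * a := by rw [h6]

theorem conj_not_mem_center {a : G} (c : G) (ha : a ∉ center G) : c * a * c⁻¹ ∉ center G := by
  intro hcz
  apply ha
  have h1 := (inferInstance : (center G).Normal).conj_mem _ hcz c⁻¹
  have e : c⁻¹ * (c * a * c⁻¹) * c⁻¹⁻¹ = a := by group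
  rwa [e] at h1

theorem mem_of_pow_mem_of_pos_lt (r : ℕ) [Fact r.Prime] (H : Subgroup G) {v : G} {d : ℕ}
    (hd0 : d ≠ 0) (hdr : d < r) (h1 : v ^ d ∈ H) (h2 : v ^ r ∈ H) : v ∈ H :=
  mem_of_pow_mem_of_coprime H ((Nat.Prime.coprime_iff_not_dvd Fact.out).mpr
    (Nat.not_dvd_of_pos_of_lt (Nat.pos_of_ne_zero hd0) hdr)).symm h1 h2

theorem exists_pow_mul_of_mem_sup [Finite G] (r : ℕ) (hr : 0 < r) {u p : G}
    (hur : u ^ r ∈ center G) (hp : p ∈ zpowers u ⊔ center G) :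
    ∃ i, i < r ∧ ∃ z ∈ center G, p = u ^ i * z := by
  obtain ⟨y, hy, z, hz, rfl⟩ := Subgroup.mem_sup_of_normal_right.mp hp
  rw [← mem_powers_iff_mem_zpowers] at hy
  obtain ⟨n, rfl⟩ := (Submonoid.mem_powers_iff _ _).mp hy
  refine ⟨n % r, Nat.mod_lt _ hr, u ^ (r * (n / r)) * z, (center G).mul_mem ?_ hz, ?_⟩
  · rw [pow_mul]; exact (center G).pow_mem hur _
  · conv_lhs => rw [← Nat.mod_add_div n r]
    rw [pow_add, mul_assoc]

theorem isPGroup_zpowers_of_rel (r : ℕ) [Fact r.Prime] {x : G} (hx : Rel r x) :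
    IsPGroup r (zpowers x) := by
  obtain ⟨j, hj⟩ := hx
  obtain ⟨i, -, hi⟩ := (Nat.dvd_prime_pow Fact.out).mp (orderOf_dvd_of_pow_eq_one hj)
  exact IsPGroup.of_card (n := i) (by rw [Nat.card_zpowers, hi])

theorem exists_conj_mem_sylow_of_rel [Finite G] {r : ℕ} [Fact r.Prime] (W : Sylow r G) {x : G}
    (hx : Rel r x) : ∃ c : G, c⁻¹ * x * c ∈ W := by
  obtain ⟨W', hW'⟩ := (isPGroup_zpowers_of_rel r hx).exists_le_sylow
  obtain ⟨c, hc⟩ := MulAction.exists_smul_eq G W W'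
  refine ⟨c, ?_⟩
  have h1 : x ∈ W' := hW' (mem_zpowers x)
  rw [← hc] at h1
  exact (mem_smul_sylow_iff W c x).mp h1

/-- normalizer condition in a Sylow subgroup, relative to a subgroup `K` of `G` -/
theorem exists_normalizing_of_not_le [Finite G] {r : ℕ} [Fact r.Prime] (W : Sylow r G)
    (K : Subgroup G) {b₀ : G} (hb₀W : b₀ ∈ W) (hb₀ : b₀ ∉ K) :
    ∃ b ∈ W, b ∉ K ∧ ∀ t ∈ W, t ∈ K → b * t * b⁻¹ ∈ K := by
  haveI : Group.IsNilpotent ↥(W : Subgroup G) := W.isPGroup'.isNilpotent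
  have hTlt : K.subgroupOf (W : Subgroup G) < ⊤ := by
    rw [lt_top_iff_ne_top]
    intro hTtop
    apply hb₀
    have h1 : (⟨b₀, hb₀W⟩ : ↥(W : Subgroup G)) ∈ K.subgroupOf (W : Subgroup G) := by
      rw [hTtop]; exact mem_top _
    exact mem_subgroupOf.mp h1
  obtain ⟨b', hb'n, hb'T⟩ :=
    SetLike.exists_of_lt (Group.normalizerCondition_of_isNilpotent _ hTlt)
  refine ⟨b'.1, b'.2, fun hc => hb'T (mem_subgroupOf.mpr hc), ?_⟩
  intro t htW htK
  have h1 : (⟨t, htW⟩ : ↥(W : Subgroup G)) ∈ K.subgroupOf (W : Subgroup G) :=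
    mem_subgroupOf.mpr htK
  have h2 : b' * ⟨t, htW⟩ * b'⁻¹ ∈ K.subgroupOf (W : Subgroup G) :=
    (mem_normalizer_iff.mp hb'n ⟨t, htW⟩).mp h1
  exact mem_subgroupOf.mp h2

variable [Finite G] {N : Subgroup G} {m r : ℕ} [Fact r.Prime]

/-- a non-central element in the "second centre" of a Sylow subgroup inside a normal subgroup
of it -/
theorem TIr.exists_second_center (h : TIr G N m r) (W : Sylow r G) (P₀ : Subgroup G)
    (hP₀W : P₀ ≤ W) (hnorm : ∀ b ∈ W, ∀ p ∈ P₀, b * p * b⁻¹ ∈ P₀) {u : G} (huP : u ∈ P₀)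
    (huZ : u ∉ center G) :
    ∃ a ∈ P₀, a ∉ center G ∧ ∀ b ∈ W, a⁻¹ * b⁻¹ * a * b ∈ center G := by
  haveI : (P₀.subgroupOf (W : Subgroup G)).Normal := by
    constructor
    intro n hn g
    rw [mem_subgroupOf] at hn ⊢
    exact hnorm g.1 g.2 n.1 hn
  have hnot : ¬ P₀.subgroupOf (W : Subgroup G) ≤ center ↥(W : Subgroup G) := by
    intro hle
    apply huZ
    have h1 : (⟨u, hP₀W huP⟩ : ↥(W : Subgroup G)) ∈ center ↥(W : Subgroup G) :=
      hle (mem_subgroupOf.mpr huP)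
    apply h.center_sylow W (hP₀W huP)
    intro b hb
    have h2 := mem_center_iff.mp h1 ⟨b, hb⟩
    exact (congrArg Subtype.val h2).symm
  obtain ⟨a, haP, haZ, hac⟩ :=
    exists_mem_second_center r W.isPGroup' (P₀.subgroupOf (W : Subgroup G)) hnot
  refine ⟨a.1, mem_subgroupOf.mp haP, ?_, ?_⟩
  · intro hc
    apply haZ
    rw [mem_center_iff]
    intro g
    exact Subtype.ext (mem_center_iff.mp hc g.1)
  · intro b hb
    have h1 := hac ⟨b, hb⟩
    have h2 : (a⁻¹ * (⟨b, hb⟩ : ↥(W : Subgroup G))⁻¹ * a * ⟨b, hb⟩ : ↥(W : Subgroup G)).1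
        = a.1⁻¹ * b⁻¹ * a.1 * b := rfl
    rw [← h2]
    apply h.center_sylow W (SetLike.coe_mem _)
    intro c hc
    have h3 := mem_center_iff.mp h1 ⟨c, hc⟩
    exact (congrArg Subtype.val h3).symm

end Cfsg.Agent.Lib.Helper9.TwoIdx
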