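import Cfsg.Agent.Lib.Helper9.TwoIdx5

set_option autoImplicit false
set_option linter.unusedSectionVars false
set_option linter.style.haveILetI false

namespace Cfsg.Agent.Lib.Helper9.TwoIdx

open Subgroup
open Cfsg.Agent.Lib.Helper69 (Cz Tz mem_Cz mem_Tz self_mem_Cz self_mem_Tz center_le_Tz Tz_congr
  mem_of_pow_mem_of_coprime exists_primePow_pow_not_mem)
open Cfsg.Agent.Lib.Helper67 (mem_smul_sylow_iff)

variable {G : Type*} [Group G] [Finite G] {N : Subgroup G} {m r : ℕ} [Fact r.Prime]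

/-- A non-central element of the second centre of a Sylow `r`-subgroup `W` commutes with a
non-central `r'`-element of `N` as soon as some non-central element of `W`, whose centralizer
has a Sylow `r`-subgroup inside `W`, does. -/
theorem TIr.phi1_of_second_center (h : TIr G N m r) (W : Sylow r G) {u : G}
    (huZ : u ∉ center G) (hPu : Phi1 N r u) (Q₀ : Subgroup G) (huQ : u ∈ Q₀)
    (hQC : Q₀ ≤ Cz u) (hQW : Q₀ ≤ W)
    (hQcard : Nat.card Q₀ = r ^ (Nat.card (Cz u)).factorization r)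
    {a₀ : G} (ha₀W : a₀ ∈ W) (ha₀Z : a₀ ∉ center G)
    (hcomm : ∀ b ∈ W, a₀⁻¹ * b⁻¹ * a₀ * b ∈ center G) : Phi1 N r a₀ := by
  classical
  by_contra hP0
  have hr : r.Prime := Fact.out
  have hN := h.ti.normal
  have huW : u ∈ W := hQW huQ
  obtain ⟨huN, hur⟩ := h.mem_of_mem_sylow W huW
  obtain ⟨ha₀N, ha₀r⟩ := h.mem_of_mem_sylow W ha₀W
  have hug : Good N u := h.ti.good_of_phi1 r huN huZ hur hPu
  obtain ⟨y, hyN, hyZ, hyc, huy⟩ := hPu
  have ha0 : ∀ y' ∈ N, y' ∈ Cz a₀ → (orderOf y').Coprime r → y' ∈ center G := by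
    intro y' hy'N hy'C hy'c
    by_contra hy'Z
    exact hP0 ⟨y', hy'N, hy'Z, hy'c, mem_Cz.mp hy'C⟩
  have hc1 : a₀ ∉ Cz u := by
    intro hc
    have h1 : Cz a₀ = Cz u := h.ti.Cz_eq_of_good huN huZ hug ha₀N hc ha₀Z
    have h2 : y ∈ Cz a₀ := by rw [h1]; exact mem_Cz.mpr huy
    exact hP0 ⟨y, hyN, hyZ, hyc, mem_Cz.mp h2⟩
  have hun : u ∈ normalizer ((Cz a₀ : Subgroup G) : Set G) :=
    mem_normalizer_Cz_of_comm (hcomm u huW)
  have hng : ¬ Good N a₀ := by
    intro hag
    exact h.ti.false_of_good_phi0 r ha₀N ha₀Z hag ha0 huN hur hun hyN hyZ hyc huy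
      (fun e => hc1 (mem_Cz.mpr e.symm))
  have hexp := h.ti.exp_of_not_good r ha₀N ha₀Z ha₀r hng
  have ha₀rZ : a₀ ^ r ∈ center G := hexp a₀ ha₀N (self_mem_Cz a₀)
  have hc6 : ∀ b ∈ W, b ^ r ∈ Cz a₀ := fun b hb => pow_mem_Cz_of_comm (hcomm b hb) ha₀rZ
  have hc7 : ∀ p ∈ W, p ∈ Cz u → p ^ r ∈ center G := by
    intro p hpW hpC
    by_contra hprZ
    have hprW : p ^ r ∈ W := (W : Subgroup G).pow_mem hpW r
    have hprN : p ^ r ∈ N := (h.mem_of_mem_sylow W hprW).1
    have hprC : p ^ r ∈ Cz u := (Cz u).pow_mem hpC r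
    have h1 : Cz (p ^ r) = Cz u := h.ti.Cz_eq_of_good huN huZ hug hprN hprC hprZ
    apply hc1
    have h2 : a₀ ∈ Cz (p ^ r) := mem_Cz.mpr (mem_Cz.mp (hc6 p hpW)).symm
    rw [h1] at h2
    exact h2
  have hurZ : u ^ r ∈ center G := hc7 u huW (self_mem_Cz u)
  by_cases hT : ∀ b ∈ W, b ∈ normalizer ((Cz u : Subgroup G) : Set G)
  · -- the centralizer of `u` is normalized by `W`
    obtain ⟨a₁, ha₁P, ha₁Z, hcomm₁⟩ := h.exists_second_center W (Cz u ⊓ (W : Subgroup G))
      inf_le_right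
      (fun b hb p hp => Subgroup.mem_inf.mpr
        ⟨(mem_normalizer_iff.mp (hT b hb) p).mp (Subgroup.mem_inf.mp hp).1,
        (W : Subgroup G).mul_mem ((W : Subgroup G).mul_mem hb (Subgroup.mem_inf.mp hp).2)
          ((W : Subgroup G).inv_mem hb)⟩)
      (Subgroup.mem_inf.mpr ⟨self_mem_Cz u, huW⟩) huZ
    have ha₁W : a₁ ∈ W := (Subgroup.mem_inf.mp ha₁P).2
    have ha₁C : a₁ ∈ Cz u := (Subgroup.mem_inf.mp ha₁P).1
    have ha₁N : a₁ ∈ N := (h.mem_of_mem_sylow W ha₁W).1
    have h1 : Cz a₁ = Cz u := h.ti.Cz_eq_of_good huN huZ hug ha₁N ha₁C ha₁Z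
    have h2 : y ∈ Cz a₁ := by rw [h1]; exact mem_Cz.mpr huy
    exact hP0 (h.no_phi0 W ha₁W ha₁Z hcomm₁ ⟨y, hyN, hyZ, hyc, mem_Cz.mp h2⟩ a₀ ha₀N ha₀Z ha₀r)
  · push Not at hT
    obtain ⟨b₀, hb₀W, hb₀n⟩ := hT
    obtain ⟨b₁, hb₁W, hb₁n, hconjT⟩ := exists_normalizing_of_not_le W
      (normalizer ((Cz u : Subgroup G) : Set G)) hb₀W hb₀n
    have hstar : ∀ q ∈ W, q ∈ Cz u → q ∉ center G → b₁ * q * b₁⁻¹ ∉ Cz u := by
      intro q hqW hqC hqZ hc
      apply hb₁n
      have hqN : q ∈ N := (h.mem_of_mem_sylow W hqW).1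
      have h1 : Cz q = Cz u := h.ti.Cz_eq_of_good huN huZ hug hqN hqC hqZ
      have h2 : Cz (b₁ * q * b₁⁻¹) = Cz u :=
        h.ti.Cz_eq_of_good huN huZ hug (hN.conj_mem q hqN b₁) hc (conj_not_mem_center b₁ hqZ)
      rw [mem_normalizer_iff]
      intro d
      constructor
      · intro hd
        have hd' : d ∈ Cz q := by rw [h1]; exact hd
        have hd'' : q * d = d * q := mem_Cz.mp hd'
        have h3 : b₁ * d * b₁⁻¹ ∈ Cz (b₁ * q * b₁⁻¹) := by
          rw [mem_Cz]
          calc b₁ * q * b₁⁻¹ * (b₁ * d * b₁⁻¹) = b₁ * (q * d) * b₁⁻¹ := by group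
            _ = b₁ * (d * q) * b₁⁻¹ := by rw [hd'']
            _ = b₁ * d * b₁⁻¹ * (b₁ * q * b₁⁻¹) := by group
        rw [h2] at h3
        exact h3
      · intro hd
        have hd' : b₁ * d * b₁⁻¹ ∈ Cz (b₁ * q * b₁⁻¹) := by rw [h2]; exact hd
        have hd'' := mem_Cz.mp hd'
        have h3 : d ∈ Cz q := by
          rw [mem_Cz]
          calc q * d = b₁⁻¹ * (b₁ * q * b₁⁻¹ * (b₁ * d * b₁⁻¹)) * b₁ := by group
            _ = b₁⁻¹ * (b₁ * d * b₁⁻¹ * (b₁ * q * b₁⁻¹)) * b₁ := by rw [hd'']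
            _ = d * q := by group
        rw [h1] at h3
        exact h3
    have hMab : ∀ x ∈ (Cz u ⊓ N : Subgroup G), ∀ y' ∈ (Cz u ⊓ N : Subgroup G),
        x * y' = y' * x := by
      intro x hx y' hy'
      have hx' := Subgroup.mem_inf.mp hx
      have hy'' := Subgroup.mem_inf.mp hy'
      have h1 : x ∈ Tz u := hug x hx'.2 hx'.1
      exact (mem_Tz.mp h1 y' (mem_Cz.mp hy''.1)).symm
    have hdecomp : ∀ p ∈ W, p ∈ Cz u → ∃ i, i < r ∧
        ∃ z ∈ (center G ⊓ (W : Subgroup G) : Subgroup G), p = u ^ i * z := by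
      intro p hpW hpC
      have hup : u * p = p * u := mem_Cz.mp hpC
      have hprZ : p ^ r ∈ center G := hc7 p hpW hpC
      have hex : ∃ i j : ℕ, i < r ∧ j < r ∧ (i ≠ 0 ∨ j ≠ 0) ∧ u ^ i * p ^ j ∈ center G := by
        by_contra hcon
        push Not at hcon
        have hun' : b₁ * u * b₁⁻¹ ∈ normalizer ((Cz u ⊓ N : Subgroup G) : Set G) :=
          mem_normalizer_inf_normal hN (hconjT u huW (le_normalizer (self_mem_Cz u)))
        have hpn' : b₁ * p * b₁⁻¹ ∈ normalizer ((Cz u ⊓ N : Subgroup G) : Set G) :=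
          mem_normalizer_inf_normal hN (hconjT p hpW (le_normalizer hpC))
        have hab : (b₁ * u * b₁⁻¹) * (b₁ * p * b₁⁻¹) = (b₁ * p * b₁⁻¹) * (b₁ * u * b₁⁻¹) := by
          calc (b₁ * u * b₁⁻¹) * (b₁ * p * b₁⁻¹) = b₁ * (u * p) * b₁⁻¹ := by group
            _ = b₁ * (p * u) * b₁⁻¹ := by rw [hup]
            _ = (b₁ * p * b₁⁻¹) * (b₁ * u * b₁⁻¹) := by group
        have har : (b₁ * u * b₁⁻¹) ^ r ∈ center G := by
          rw [conj_pow]
          exact (inferInstance : (center G).Normal).conj_mem _ hurZ b₁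
        have hbr : (b₁ * p * b₁⁻¹) ^ r ∈ center G := by
          rw [conj_pow]
          exact (inferInstance : (center G).Normal).conj_mem _ hprZ b₁
        have key := fpf_pair r (Cz u ⊓ N) hMab (b₁ * u * b₁⁻¹) (b₁ * p * b₁⁻¹) hun' hpn' hab
          har hbr ?_ y (Subgroup.mem_inf.mpr ⟨mem_Cz.mpr huy, hyN⟩)
        · apply hyZ
          have hco : Nat.Coprime r (orderOf y) := hyc.symm
          exact mem_of_pow_mem_of_coprime (center G) hco key
            (by rw [pow_orderOf_eq_one]; exact one_mem _)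
        · intro i j hi hj hij w hw hcw
          by_contra hwZ
          have hw' := Subgroup.mem_inf.mp hw
          have h1 : Cz w = Cz u := h.ti.Cz_eq_of_good huN huZ hug hw'.2 hw'.1 hwZ
          have hq : u ^ i * p ^ j ∉ center G := hcon i j hi hj hij
          have hqW : u ^ i * p ^ j ∈ W :=
            (W : Subgroup G).mul_mem ((W : Subgroup G).pow_mem huW i)
              ((W : Subgroup G).pow_mem hpW j)
          have hqC : u ^ i * p ^ j ∈ Cz u :=
            (Cz u).mul_mem ((Cz u).pow_mem (self_mem_Cz u) i) ((Cz u).pow_mem hpC j)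
          apply hstar _ hqW hqC hq
          have e : b₁ * (u ^ i * p ^ j) * b₁⁻¹ = (b₁ * u * b₁⁻¹) ^ i * (b₁ * p * b₁⁻¹) ^ j := by
            rw [conj_pow, conj_pow]
            simp only [mul_assoc, inv_mul_cancel_left]
          have h2 : (b₁ * u * b₁⁻¹) ^ i * (b₁ * p * b₁⁻¹) ^ j ∈ Cz w := mem_Cz.mpr hcw.symm
          rw [h1, ← e] at h2
          exact h2
      obtain ⟨i, j, hi, hj, hij, hcen⟩ := hex
      have hj0 : j ≠ 0 := by
        rintro rfl
        rw [pow_zero, mul_one] at hcen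
        have hi0 : i ≠ 0 := by
          rcases hij with h1 | h1
          · exact h1
          · exact absurd rfl h1
        exact huZ (mem_of_pow_mem_of_pos_lt r (center G) hi0 hi hcen hurZ)
      have hpA : p ∈ zpowers u ⊔ center G := by
        apply mem_of_pow_mem_of_pos_lt r _ hj0 hj
        · have e : p ^ j = (u ^ i)⁻¹ * (u ^ i * p ^ j) := by group
          rw [e]
          exact Subgroup.mul_mem _
            ((le_sup_left : zpowers u ≤ zpowers u ⊔ center G)
              ((zpowers u).inv_mem ((zpowers u).pow_mem (mem_zpowers u) i)))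
            ((le_sup_right : center G ≤ zpowers u ⊔ center G) hcen)
        · exact (le_sup_right : center G ≤ zpowers u ⊔ center G) hprZ
      obtain ⟨i', hi', z, hz, hpz⟩ := exists_pow_mul_of_mem_sup r hr.pos hurZ hpA
      refine ⟨i', hi', z, Subgroup.mem_inf.mpr ⟨hz, ?_⟩, hpz⟩
      have e : z = (u ^ i')⁻¹ * p := by rw [hpz]; group
      rw [e]
      exact (W : Subgroup G).mul_mem
        ((W : Subgroup G).inv_mem ((W : Subgroup G).pow_mem huW i')) hpW
    have hcard1 : Nat.card Q₀ ≤ r * Nat.card (center G ⊓ (W : Subgroup G) : Subgroup G) := by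
      let φ : Fin r × ↥(center G ⊓ (W : Subgroup G) : Subgroup G) → G :=
        fun iz => u ^ (iz.1 : ℕ) * iz.2.1
      have hsub : (Q₀ : Set G) ⊆ Set.range φ := by
        intro p hp
        obtain ⟨i, hi, z, hz, hpz⟩ := hdecomp p (hQW hp) (hQC hp)
        exact ⟨(⟨i, hi⟩, ⟨z, hz⟩), hpz.symm⟩
      calc Nat.card Q₀ ≤ Nat.card (Set.range φ) := Nat.card_mono (Set.toFinite _) hsub
        _ ≤ Nat.card (Fin r × ↥(center G ⊓ (W : Subgroup G) : Subgroup G)) :=
          Finite.card_range_le φ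
        _ = r * Nat.card (center G ⊓ (W : Subgroup G) : Subgroup G) := by
          rw [Nat.card_prod, Nat.card_fin]
    have hAW : zpowers a₀ ⊔ (center G ⊓ (W : Subgroup G)) ≤ (W : Subgroup G) :=
      sup_le (by rw [zpowers_le]; exact ha₀W) inf_le_right
    have hAC : zpowers a₀ ⊔ (center G ⊓ (W : Subgroup G)) ≤ Cz a₀ :=
      sup_le (by rw [zpowers_le]; exact self_mem_Cz a₀) (inf_le_left.trans (center_le_Cz a₀))
    have hAT : zpowers a₀ ⊔ (center G ⊓ (W : Subgroup G)) ≤ Tz a₀ :=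
      sup_le (by rw [zpowers_le]; exact self_mem_Tz a₀) (inf_le_left.trans (center_le_Tz a₀))
    have hAp : IsPGroup r (zpowers a₀ ⊔ (center G ⊓ (W : Subgroup G)) : Subgroup G) :=
      W.isPGroup'.to_le hAW
    have hcard2 : r * Nat.card (center G ⊓ (W : Subgroup G) : Subgroup G) ≤
        Nat.card (zpowers a₀ ⊔ (center G ⊓ (W : Subgroup G)) : Subgroup G) := by
      let ψ : Fin r × ↥(center G ⊓ (W : Subgroup G) : Subgroup G) →
          ↥(zpowers a₀ ⊔ (center G ⊓ (W : Subgroup G)) : Subgroup G) :=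
        fun iz => ⟨a₀ ^ (iz.1 : ℕ) * iz.2.1, Subgroup.mul_mem _
          ((le_sup_left : zpowers a₀ ≤ zpowers a₀ ⊔ (center G ⊓ (W : Subgroup G)))
            ((zpowers a₀).pow_mem (mem_zpowers a₀) _))
          ((le_sup_right : (center G ⊓ (W : Subgroup G)) ≤
            zpowers a₀ ⊔ (center G ⊓ (W : Subgroup G))) iz.2.2)⟩
      have haux : ∀ i i' : ℕ, i < r → i' < r → ∀ z z' : G, z ∈ center G → z' ∈ center G →
          a₀ ^ i * z = a₀ ^ i' * z' → i ≤ i' → i = i' := by
        intro i i' hi hi' z z' hz hz' heq hle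
        by_contra hne
        apply ha₀Z
        have hd0 : i' - i ≠ 0 := by omega
        have hdr : i' - i < r := by omega
        refine mem_of_pow_mem_of_pos_lt r (center G) hd0 hdr ?_ ha₀rZ
        have e1 : a₀ ^ i' = a₀ ^ i * a₀ ^ (i' - i) := by rw [← pow_add]; congr 1; omega
        rw [e1, mul_assoc] at heq
        have e2 := mul_left_cancel heq
        have e3 : a₀ ^ (i' - i) = z * z'⁻¹ := by rw [e2]; group
        rw [e3]
        exact (center G).mul_mem hz ((center G).inv_mem hz')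
      have hψ : Function.Injective ψ := by
        rintro ⟨i, z⟩ ⟨i', z'⟩ heq
        have heq' : a₀ ^ (i : ℕ) * z.1 = a₀ ^ (i' : ℕ) * z'.1 := congrArg Subtype.val heq
        have hz := (Subgroup.mem_inf.mp z.2).1
        have hz' := (Subgroup.mem_inf.mp z'.2).1
        have hii' : (i : ℕ) = (i' : ℕ) := by
          rcases le_total (i : ℕ) (i' : ℕ) with hle | hle
          · exact haux _ _ i.2 i'.2 _ _ hz hz' heq' hle
          · exact (haux _ _ i'.2 i.2 _ _ hz' hz heq'.symm hle).symm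
        have hi : i = i' := Fin.ext hii'
        subst hi
        have hzz : z = z' := Subtype.ext (mul_left_cancel heq')
        rw [hzz]
      calc r * Nat.card (center G ⊓ (W : Subgroup G) : Subgroup G)
          = Nat.card (Fin r × ↥(center G ⊓ (W : Subgroup G) : Subgroup G)) := by
            rw [Nat.card_prod, Nat.card_fin]
        _ ≤ _ := Nat.card_le_card_of_injective ψ hψ
    have hcard3 : r ^ (Nat.card (Cz a₀)).factorization r ≤
        Nat.card (zpowers a₀ ⊔ (center G ⊓ (W : Subgroup G)) : Subgroup G) := by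
      rw [h.ti.card_Cz_eq ha₀N ha₀Z huN huZ, ← hQcard]
      exact hcard1.trans hcard2
    apply hng
    intro k hk hkC
    obtain ⟨j, q, hcop, hq1, hq2⟩ := exists_split r k
    apply mem_of_pow_mem_of_coprime _ hcop
    · exact center_le_Tz a₀ (ha0 _ (N.pow_mem hk _) ((Cz a₀).pow_mem hkC _) hq2)
    · apply hAT
      apply mem_of_commutes_max r hAC hAp hcard3 ((Cz a₀).pow_mem hkC q) j hq1
      intro t ht
      have h1 : t ∈ Tz a₀ := hAT ht
      exact mem_centralizer_iff.mp h1 (k ^ q) ((Cz a₀).pow_mem hkC q)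

end Cfsg.Agent.Lib.Helper9.TwoIdx
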