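import Cfsg.Agent.Lib.Helper9.TwoIdx6
import Cfsg.Agent.Lib.Helper46.ClassSize

set_option autoImplicit false
set_option linter.unusedSectionVars false
set_option linter.style.haveILetI false

namespace Cfsg.Agent.Lib.Helper9.TwoIdx

open Subgroup
open Cfsg.Agent.Lib.Helper69 (Cz Tz mem_Cz mem_Tz self_mem_Cz self_mem_Tz center_le_Tz Tz_congr
  mem_of_pow_mem_of_coprime exists_primePow_pow_not_mem)
open Cfsg.Agent.Lib.Helper67 (mem_smul_sylow_iff)

variable {G : Type*} [Group G] [Finite G]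

/-- if all `r'`-elements of `N` are central in `G`, then `N` is nilpotent -/
theorem nilpotent_of_coprime_central (r : ℕ) [Fact r.Prime] (N : Subgroup G)
    (hno : ∀ y ∈ N, (orderOf y).Coprime r → y ∈ center G) : Group.IsNilpotent N := by
  let f : ↥N →* G ⧸ center G := (QuotientGroup.mk' (center G)).comp N.subtype
  have hker : f.rangeRestrict.ker ≤ center ↥N := by
    intro k hk
    rw [MonoidHom.ker_rangeRestrict, MonoidHom.mem_ker] at hk
    have hk' : ((k : G) : G ⧸ center G) = 1 := hk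
    have h1 : (k : G) ∈ center G := (QuotientGroup.eq_one_iff _).mp hk'
    rw [mem_center_iff]
    intro g
    exact Subtype.ext (mem_center_iff.mp h1 g.1)
  have hp : IsPGroup r f.range := by
    rintro ⟨g, k, rfl⟩
    obtain ⟨j, q, hcop, hq1, hq2⟩ := exists_split r (k : G)
    refine ⟨j, Subtype.ext ?_⟩
    have h1 : (k : G) ^ r ^ j ∈ center G := hno _ (N.pow_mem k.2 _) hq2
    have h2 : f (k ^ r ^ j) = 1 := (QuotientGroup.eq_one_iff _).mpr h1
    rw [map_pow] at h2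
    exact h2
  haveI : Group.IsNilpotent ↥f.range := hp.isNilpotent
  exact Subgroup.isNilpotent_of_ker_le_center f.rangeRestrict hker

variable {N : Subgroup G} {m r : ℕ} [Fact r.Prime]

theorem TIr.card_K_all (h : TIr G N m r) (W : Sylow r G) {a₀ : G} (ha₀W : a₀ ∈ W)
    (ha₀Z : a₀ ∉ center G) (hcomm : ∀ b ∈ W, a₀⁻¹ * b⁻¹ * a₀ * b ∈ center G)
    (hP : Phi1 N r a₀) {v : G} (hv : v ∈ N) (hvZ : v ∉ center G) :
    Nat.card (Cz v ⊓ N : Subgroup G) = Nat.card (Cz a₀ ⊓ N : Subgroup G) := by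
  obtain ⟨ha₀N, ha₀r⟩ := h.mem_of_mem_sylow W ha₀W
  have hall := h.no_phi0 W ha₀W ha₀Z hcomm hP
  obtain ⟨x, hxC, hxZ, hxr⟩ := h.ti.exists_relem r ha₀N ha₀Z ha₀r hv hvZ
  have hxN : x ∈ N := by
    obtain ⟨j, hj⟩ := hxr
    exact h.relem x j hj
  have hxg : Good N x := h.ti.good_of_phi1 r hxN hxZ hxr (hall x hxN hxZ hxr)
  have hvC : v ∈ Cz x := mem_Cz.mpr (mem_Cz.mp hxC).symm
  have h1 : Cz v = Cz x := h.ti.Cz_eq_of_good hxN hxZ hxg hv hvC hvZ
  obtain ⟨c, hc⟩ := exists_conj_mem_sylow_of_rel W hxr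
  have hcZ : c⁻¹ * x * c ∉ center G := by
    have h2 := conj_not_mem_center c⁻¹ hxZ
    rwa [inv_inv] at h2
  have h2 := h.card_K_eq W ha₀W ha₀Z hcomm hP hc hcZ
  have h3 := card_K_conj h.ti.normal c (c⁻¹ * x * c)
  have e : c * (c⁻¹ * x * c) * c⁻¹ = x := by group
  rw [e] at h3
  rw [h1, h3, h2]

/-- under the hypotheses `TIr`, a non-central `r'`-element of `N` cannot coexist with a
non-central `r`-element -/
theorem TIr.false_of_exists (h : TIr G N m r) {y : G} (hyN : y ∈ N) (hyZ : y ∉ center G)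
    (hyc : (orderOf y).Coprime r) {x₁ : G} (hx₁N : x₁ ∈ N) (hx₁Z : x₁ ∉ center G)
    (hx₁r : Rel r x₁) : False := by
  classical
  obtain ⟨u, huC, huZ, hur⟩ := h.ti.exists_relem r hx₁N hx₁Z hx₁r hyN hyZ
  have hPu : Phi1 N r u := ⟨y, hyN, hyZ, hyc, (mem_Cz.mp huC).symm⟩
  obtain ⟨Q₀, huQ, hQC, hQp, hQcard⟩ := exists_max_pgroup r (Cz u) (zpowers u)
    (isPGroup_zpowers_of_rel r hur) (by rw [zpowers_le]; exact self_mem_Cz u)
  obtain ⟨W, hQW⟩ := hQp.exists_le_sylow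
  have huW : u ∈ W := hQW (huQ (mem_zpowers u))
  obtain ⟨a₀, ha₀W, ha₀Z, hcomm⟩ := h.exists_second_center W (W : Subgroup G) le_rfl
    (fun b hb p hp => (W : Subgroup G).mul_mem ((W : Subgroup G).mul_mem hb hp)
      ((W : Subgroup G).inv_mem hb)) huW huZ
  obtain ⟨ha₀N, ha₀r⟩ := h.mem_of_mem_sylow W ha₀W
  have hPa : Phi1 N r a₀ := h.phi1_of_second_center W huZ hPu Q₀ (huQ (mem_zpowers u)) hQC hQW
    hQcard ha₀W ha₀Z hcomm
  have hWN : ∀ x ∈ W, x ∈ N := fun x hx => (h.mem_of_mem_sylow W hx).1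
  have hNC : ∀ v ∈ N, v ∉ center G → ¬ N ≤ Cz v := by
    intro v hv hvZ hle
    exact h.not_le_Cz W hv hvZ (fun x hx => hle (hWN x hx))
  have hcent : ∀ v : ↥N, centralizer ({v} : Set ↥N) = (Cz (v : G)).subgroupOf N := by
    intro v
    ext k
    rw [mem_centralizer_iff, mem_subgroupOf, mem_Cz]
    constructor
    · intro hk
      exact congrArg Subtype.val (hk v rfl)
    · intro hk w hw
      rw [Set.mem_singleton_iff] at hw
      subst hw
      exact Subtype.ext hk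
  have hrel : ∀ v ∈ N, v ∉ center G → (Cz v).relIndex N = (Cz a₀).relIndex N := by
    intro v hv hvZ
    have h1 := Cfsg.Agent.Lib.Helper69.card_eq_relIndex_mul_card (Cz v ⊓ N) N inf_le_right
    have h2 := Cfsg.Agent.Lib.Helper69.card_eq_relIndex_mul_card (Cz a₀ ⊓ N) N inf_le_right
    rw [Subgroup.inf_relIndex_right] at h1 h2
    rw [h.card_K_all W ha₀W ha₀Z hcomm hPa hv hvZ] at h1
    exact Nat.eq_of_mul_eq_mul_right Nat.card_pos (h1.symm.trans h2)
  have hTwo : Cfsg.Agent.Lib.Helper69.TwoCl ↥N ((Cz a₀).relIndex N) := by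
    constructor
    · have h0 : (Cz a₀).relIndex N ≠ 0 := Subgroup.index_ne_zero_of_finite
      have h1 : (Cz a₀).relIndex N ≠ 1 := by
        intro h1
        exact hNC a₀ ha₀N ha₀Z (Subgroup.relIndex_eq_one.mp h1)
      omega
    · intro v
      rw [hcent v]
      by_cases hvZ : (v : G) ∈ center G
      · left
        show (Cz (v : G)).relIndex N = 1
        rw [Subgroup.relIndex_eq_one]
        exact fun k _ => mem_Cz.mpr (mem_center_iff.mp hvZ k).symm
      · right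
        exact hrel v v.2 hvZ
  have hncN : ∀ v (hv : v ∈ N), v ∉ center G → (⟨v, hv⟩ : ↥N) ∉ center ↥N := by
    intro v hv hvZ hc
    apply hNC v hv hvZ
    intro k hk
    rw [mem_Cz]
    exact (congrArg Subtype.val (mem_center_iff.mp hc ⟨k, hk⟩)).symm
  obtain ⟨p, hp, hpu⟩ := hTwo.unique_prime ⟨⟨a₀, ha₀N⟩, hncN a₀ ha₀N ha₀Z⟩
  have hr : r.Prime := Fact.out
  have hrp : r = p := by
    obtain ⟨j, hj⟩ := ha₀r
    exact hpu r hr ⟨a₀, ha₀N⟩ (hncN a₀ ha₀N ha₀Z) j (Subtype.ext hj)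
  obtain ⟨y₀, hy₀N, hy₀Z, hy₀c, hay₀⟩ := hPa
  obtain ⟨s, hs, j, k, hk, hkj⟩ := exists_primePow_pow_not_mem (center G) (orderOf y₀)
    (orderOf_pos y₀) y₀ (pow_orderOf_eq_one y₀) hy₀Z
  have hy'c : (orderOf (y₀ ^ k)).Coprime r :=
    Nat.Coprime.coprime_dvd_left (orderOf_pow_dvd k) hy₀c
  have hsr : s ≠ r := by
    intro hsr
    apply hk
    rw [hsr] at hkj
    rw [eq_one_of_rel_of_coprime r j hkj hy'c]
    exact one_mem _
  have hy'N : y₀ ^ k ∈ N := N.pow_mem hy₀N k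
  have hsp : s = p := hpu s hs ⟨y₀ ^ k, hy'N⟩ (hncN _ hy'N hk) j (Subtype.ext hkj)
  exact hsr (hsp.trans hrp.symm)

theorem TIr.nilpotent (h : TIr G N m r) (R : Sylow r G)
    (hR : ¬ (R : Subgroup G) ≤ center G) : Group.IsNilpotent N := by
  apply nilpotent_of_coprime_central r N
  intro y hyN hyc
  by_contra hyZ
  obtain ⟨x₁, hx₁R, hx₁Z⟩ := SetLike.not_le_iff_exists.mp hR
  obtain ⟨hx₁N, hx₁r⟩ := h.mem_of_mem_sylow R hx₁R
  exact h.false_of_exists hyN hyZ hyc hx₁N hx₁Z hx₁r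

/-- **Main theorem**: a normal subgroup `N` containing a non-central Sylow `r`-subgroup of `G`
all of whose elements have centralizer index `1` or `m` in `G` is nilpotent. -/
theorem nilpotent_of_two_indices (r : ℕ) [Fact r.Prime]
    (R : Sylow r G) (hR : ¬ (R : Subgroup G) ≤ center G) (N : Subgroup G) [hN : N.Normal]
    (hRN : (R : Subgroup G) ≤ N) (m : ℕ)
    (h : ∀ x ∈ N, (Cz x).index = 1 ∨ (Cz x).index = m) : Group.IsNilpotent N := by
  have hr : r.Prime := Fact.out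
  have hti : TI G N m := by
    refine ⟨hN, ?_⟩
    intro x hx hxZ
    rcases h x hx with h1 | h1
    · exfalso
      apply hxZ
      rw [Subgroup.index_eq_one] at h1
      rw [mem_center_iff]
      intro g
      have h2 : g ∈ Cz x := by rw [h1]; exact mem_top g
      exact (mem_Cz.mp h2).symm
    · exact h1
  have hrelem : ∀ x : G, ∀ j : ℕ, x ^ r ^ j = 1 → x ∈ N := by
    intro x j hj
    obtain ⟨c, hc⟩ := exists_conj_mem_sylow_of_rel R ⟨j, hj⟩
    have h1 := hN.conj_mem _ (hRN hc) c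
    have e : c * (c⁻¹ * x * c) * c⁻¹ = x := by group
    rwa [e] at h1
  by_cases hrm : r ∣ m
  · exact TIr.nilpotent ⟨hti, hrelem, hrm⟩ R hR
  · have hnd : ∀ x ∈ N, ¬ r ∣ (Cz x).index := by
      intro x hx hd
      rcases h x hx with h1 | h1
      · rw [h1] at hd
        exact hr.one_lt.ne' (Nat.dvd_one.mp hd)
      · rw [h1] at hd
        exact hrm hd
    have hM : ((centralizer ((R : Subgroup G) : Set G)).subgroupOf N) = ⊤ := by
      apply Cfsg.Agent.Lib.Helper67.eq_top_of_forall_exists_conj_mem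
      intro x
      obtain ⟨S, hS⟩ := Cfsg.Agent.Lib.Helper46.ClassSize.exists_sylow_le_of_not_dvd_index
        (Cz (x : G)) (hnd x x.2)
      have hSN : (S : Subgroup G) ≤ N := by
        intro s hs
        obtain ⟨k, hk⟩ := S.isPGroup' ⟨s, hs⟩
        exact hrelem s k (congrArg Subtype.val hk)
      obtain ⟨n, hn⟩ := MulAction.exists_smul_eq ↥N (R.subtype hRN) (S.subtype hSN)
      refine ⟨n⁻¹, ?_⟩
      rw [mem_subgroupOf, mem_centralizer_iff]
      intro s hs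
      have h1 : n * ⟨s, hRN hs⟩ * n⁻¹ ∈ ((n • R.subtype hRN : Sylow r ↥N) : Subgroup ↥N) := by
        refine (mem_smul_sylow_iff (R.subtype hRN) n _).mpr ?_
        have e : n⁻¹ * (n * ⟨s, hRN hs⟩ * n⁻¹) * n = ⟨s, hRN hs⟩ := by group
        rw [e, Sylow.coe_subtype, mem_subgroupOf]
        exact hs
      rw [hn, Sylow.coe_subtype, mem_subgroupOf] at h1
      have h2 : (n : G) * s * (n : G)⁻¹ ∈ Cz (x : G) := hS h1
      have h3 := mem_Cz.mp h2
      have e2 : ((n⁻¹ : ↥N) * x * (n⁻¹ : ↥N)⁻¹ : ↥N).1 = (n : G)⁻¹ * (x : G) * (n : G) := by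
        simp
      rw [e2]
      calc s * ((n : G)⁻¹ * (x : G) * (n : G))
          = (n : G)⁻¹ * (((n : G) * s * (n : G)⁻¹) * x) * n := by group
        _ = (n : G)⁻¹ * (x * ((n : G) * s * (n : G)⁻¹)) * n := by rw [h3]
        _ = (n : G)⁻¹ * (x : G) * (n : G) * s := by group
    have hNR : ∀ x ∈ N, ∀ s ∈ R, x * s = s * x := by
      intro x hx s hs
      have h1 : (⟨x, hx⟩ : ↥N) ∈ (centralizer ((R : Subgroup G) : Set G)).subgroupOf N := by
        rw [hM]; exact mem_top _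
      rw [mem_subgroupOf, mem_centralizer_iff] at h1
      exact (h1 s hs).symm
    obtain ⟨x₀, hx₀R, hx₀Z⟩ := SetLike.not_le_iff_exists.mp hR
    have hx₀N : x₀ ∈ N := hRN hx₀R
    obtain ⟨j₀, hj₀⟩ : Rel r x₀ := by
      obtain ⟨k, hk⟩ := R.isPGroup' ⟨x₀, hx₀R⟩
      exact ⟨k, congrArg Subtype.val hk⟩
    have hNx₀ : N ≤ Cz x₀ := fun k hk => mem_Cz.mpr (hNR k hk x₀ hx₀R).symm
    have hc1 : ∀ w ∈ N, (orderOf w).Coprime r → ∀ k ∈ N, k * w = w * k := by
      intro w hw hwc k hk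
      have h1 : Cz x₀ ≤ Cz w := hti.le_Cz_of_coprime hx₀N hx₀Z hw (hNR w hw x₀ hx₀R).symm
        (coprime_orders r j₀ hj₀ hwc)
      exact (mem_Cz.mp (h1 (hNx₀ hk))).symm
    have hc2 : ∀ w : G, ∀ j : ℕ, w ^ r ^ j = 1 → ∀ k ∈ N, k * w = w * k := by
      intro w j hj k hk
      obtain ⟨c, hc⟩ := exists_conj_mem_sylow_of_rel R ⟨j, hj⟩
      have hk' : c⁻¹ * k * c ∈ N := by
        have h2 := hN.conj_mem k hk c⁻¹
        rwa [inv_inv] at h2
      have h1 := hNR _ hk' _ hc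
      calc k * w = c * ((c⁻¹ * k * c) * (c⁻¹ * w * c)) * c⁻¹ := by group
        _ = c * ((c⁻¹ * w * c) * (c⁻¹ * k * c)) * c⁻¹ := by rw [h1]
        _ = w * k := by group
    have hcenter : ∀ k : ↥N, k ∈ center ↥N := by
      intro k
      obtain ⟨j, q, hcop, hq1, hq2⟩ := exists_split r (k : G)
      have hA : (k ^ r ^ j) ∈ center ↥N := by
        rw [mem_center_iff]
        intro g
        exact Subtype.ext (hc1 _ (N.pow_mem k.2 _) hq2 g.1 g.2)
      have hB : (k ^ q) ∈ center ↥N := by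
        rw [mem_center_iff]
        intro g
        exact Subtype.ext (hc2 _ j hq1 g.1 g.2)
      exact mem_of_pow_mem_of_coprime (center ↥N) hcop hA hB
    exact ⟨⟨1, by rw [Subgroup.upperCentralSeries_one, Subgroup.eq_top_iff']; exact hcenter⟩⟩

end Cfsg.Agent.Lib.Helper9.TwoIdx
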